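import Mathlib

/-!
TI-subgroups `M` with `N(M) = M · C(z)`, `z ∈ N(M)` an involution, such that no involution
centralises a nontrivial element of `M` (Bender's set-up for the Brauer–Suzuki–Wall theorem).
-/

set_option autoImplicit false

namespace Cfsg.Agent.H272.TIInv

open Subgroup

variable {G : Type*} [Group G] {M : Subgroup G} {z : G}

structure Hyp (M : Subgroup G) (z : G) : Prop where
  ne : M ≠ ⊥
  ti : ∀ g x : G, x ∈ M → x ≠ 1 → g * x * g⁻¹ ∈ M → g ∈ normalizer (M : Set G)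
  zz : z * z = 1
  z1 : z ≠ 1
  zN : z ∈ normalizer (M : Set G)
  fac : ∀ g ∈ normalizer (M : Set G), ∃ y ∈ M, ∃ h ∈ normalizer (M : Set G),
    h * z = z * h ∧ g = y * h
  odd : ∀ x ∈ M, x ≠ 1 → ∀ t : G, t * t = 1 → t * x = x * t → t = 1

theorem conj_mem {g x : G} (hg : g ∈ normalizer (M : Set G)) (hx : x ∈ M) : g * x * g⁻¹ ∈ M :=
  (Subgroup.mem_normalizer_iff.mp hg x).mp hx

theorem conj_mem' {g x : G} (hg : g ∈ normalizer (M : Set G)) (hx : x ∈ M) : g⁻¹ * x * g ∈ M := by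
  have := conj_mem (inv_mem hg) hx
  rwa [inv_inv] at this

theorem le_N {x : G} (hx : x ∈ M) : x ∈ normalizer (M : Set G) := Subgroup.le_normalizer hx

namespace Hyp

theorem exists_ne (h : Hyp M z) : ∃ x ∈ M, x ≠ 1 := by
  by_contra hcon
  push Not at hcon
  exact h.ne ((Subgroup.eq_bot_iff_forall _).mpr hcon)

/-- no involutions in `M` -/
theorem eq_one_of_sq (h : Hyp M z) {x : G} (hx : x ∈ M) (hxx : x * x = 1) : x = 1 := by
  by_contra hx1
  exact hx1 (h.odd x hx hx1 x hxx rfl)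

/-- an involution of `N(M)` inverts `M` -/
theorem inverts [Finite G] (h : Hyp M z) {t : G} (ht : t * t = 1) (ht1 : t ≠ 1)
    (htN : t ∈ normalizer (M : Set G)) {x : G} (hx : x ∈ M) : t * x * t⁻¹ = x⁻¹ := by
  have hti : t⁻¹ = t := inv_eq_of_mul_eq_one_left ht
  let φ : M → M := fun y => ⟨(y : G)⁻¹ * (t * y * t⁻¹), M.mul_mem (M.inv_mem y.2) (conj_mem htN y.2)⟩
  have hinj : Function.Injective φ := by
    intro a b hab
    have h1 : (a : G)⁻¹ * (t * a * t⁻¹) = (b : G)⁻¹ * (t * b * t⁻¹) := congrArg Subtype.val hab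
    have h2 : t * ((b : G) * (a : G)⁻¹) = ((b : G) * (a : G)⁻¹) * t := by
      have h3 : (b : G) * ((a : G)⁻¹ * (t * a * t⁻¹)) * (t * (a : G)⁻¹ * t⁻¹) * t =
          (b : G) * ((b : G)⁻¹ * (t * b * t⁻¹)) * (t * (a : G)⁻¹ * t⁻¹) * t := by rw [h1]
      have h4 : (b : G) * ((a : G)⁻¹ * (t * a * t⁻¹)) * (t * (a : G)⁻¹ * t⁻¹) * t =
          ((b : G) * (a : G)⁻¹) * t := by group
      have h5 : (b : G) * ((b : G)⁻¹ * (t * b * t⁻¹)) * (t * (a : G)⁻¹ * t⁻¹) * t =
          t * ((b : G) * (a : G)⁻¹) := by group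
      rw [← h4, ← h5, h3]
    by_contra hne
    have h3 : (b : G) * (a : G)⁻¹ ≠ 1 := by
      intro h4
      exact hne (Subtype.ext (mul_inv_eq_one.mp h4).symm)
    exact ht1 (h.odd _ (M.mul_mem b.2 (M.inv_mem a.2)) h3 t ht h2)
  obtain ⟨y, hy⟩ := (Finite.surjective_of_injective hinj) ⟨x, hx⟩
  have h1 : (y : G)⁻¹ * (t * y * t⁻¹) = x := congrArg Subtype.val hy
  rw [← h1, hti]
  have h2 : t * ((y : G)⁻¹ * (t * y * t)) * t = t * (y : G)⁻¹ * t * y * (t * t) := by group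
  have h3 : ((y : G)⁻¹ * (t * y * t))⁻¹ = t⁻¹ * (y : G)⁻¹ * t⁻¹ * y := by group
  rw [h2, h3, ht, hti, mul_one]

theorem z_inv (h : Hyp M z) : z⁻¹ = z := inv_eq_of_mul_eq_one_left h.zz

theorem z_conj [Finite G] (h : Hyp M z) {x : G} (hx : x ∈ M) : z * x * z = x⁻¹ := by
  have := h.inverts h.zz h.z1 h.zN hx
  rwa [h.z_inv] at this

/-- `z x = x⁻¹ z` -/
theorem z_mul [Finite G] (h : Hyp M z) {x : G} (hx : x ∈ M) : z * x = x⁻¹ * z := by
  have h1 := h.z_conj hx
  rw [← h1, mul_assoc, h.zz, mul_one]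

/-- `M` is commutative -/
theorem comm [Finite G] (h : Hyp M z) {x y : G} (hx : x ∈ M) (hy : y ∈ M) : x * y = y * x := by
  have h1 := h.inverts h.zz h.z1 h.zN (M.mul_mem hx hy)
  have h2 : z * (x * y) * z⁻¹ = (z * x * z⁻¹) * (z * y * z⁻¹) := by group
  rw [h2, h.inverts h.zz h.z1 h.zN hx, h.inverts h.zz h.z1 h.zN hy] at h1
  have h3 : (x⁻¹ * y⁻¹)⁻¹ = (x * y)⁻¹⁻¹ := by rw [h1]
  rw [inv_inv, mul_inv_rev, inv_inv, inv_inv] at h3
  exact h3.symm

/-- an element of `M` commuting with `z` is trivial -/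
theorem eq_one_of_comm_z (h : Hyp M z) {x : G} (hx : x ∈ M) (hc : z * x = x * z) : x = 1 := by
  by_contra hx1
  exact h.z1 (h.odd x hx hx1 z h.zz hc)

/-- the involutions of `N(M)` are in `z M` -/
theorem exists_eq_of_mem_N [Finite G] (h : Hyp M z) {t : G} (ht : t * t = 1) (ht1 : t ≠ 1)
    (htN : t ∈ normalizer (M : Set G)) : ∃ y ∈ M, t = y * z := by
  obtain ⟨y, hy, k, hkN, hkz, htk⟩ := h.fac t htN
  have hinv := fun x hx => h.inverts ht ht1 htN (x := x) hx
  have hk : ∀ x ∈ M, k * x * k⁻¹ = x⁻¹ := by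
    intro x hx
    have h1 : k = y⁻¹ * t := by rw [htk]; group
    have h2 : k * x * k⁻¹ = y⁻¹ * (t * x * t⁻¹) * y := by rw [h1]; group
    rw [h2, hinv x hx]
    have h3 := h.comm (M.inv_mem hy) (M.inv_mem hx)
    rw [h3]; group
  have hkk : k * k = 1 := by
    have h1 : t * t = (y * (k * y * k⁻¹)) * (k * k) := by rw [htk]; group
    rw [ht, hk y hy, mul_inv_cancel, one_mul] at h1
    exact h1.symm
  obtain ⟨x, hx, hx1⟩ := h.exists_ne
  have hkz1 : k * z = 1 := by
    refine h.odd x hx hx1 (k * z) ?_ ?_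
    · calc k * z * (k * z) = k * (z * k) * z := by group
        _ = k * (k * z) * z := by rw [hkz]
        _ = (k * k) * (z * z) := by group
        _ = 1 := by rw [hkk, h.zz, one_mul]
    · have h1 : k * x⁻¹ = x * k := by
        have := hk x⁻¹ (M.inv_mem hx)
        rw [inv_inv] at this
        exact mul_inv_eq_iff_eq_mul.mp this
      calc k * z * x = k * (z * x) := by group
        _ = k * (x⁻¹ * z) := by rw [h.z_mul hx]
        _ = (k * x⁻¹) * z := by group
        _ = x * (k * z) := by rw [h1]; group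
  refine ⟨y, hy, ?_⟩
  rw [htk]
  have h1 : k = z⁻¹ := eq_inv_of_mul_eq_one_left hkz1
  rw [h1, h.z_inv]

/-- elements of `M z` are involutions -/
theorem mul_z_sq [Finite G] (h : Hyp M z) {y : G} (hy : y ∈ M) : (y * z) * (y * z) = 1 := by
  calc y * z * (y * z) = y * (z * y * z) := by group
    _ = 1 := by rw [h.z_conj hy]; group

theorem z_not_mem (h : Hyp M z) : z ∉ M := fun hz => h.z1 (h.eq_one_of_sq hz h.zz)

theorem mul_z_ne (h : Hyp M z) {y : G} (hy : y ∈ M) : y * z ≠ 1 := by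
  intro h1
  apply h.z_not_mem
  have : z = y⁻¹ := eq_inv_of_mul_eq_one_right h1
  rw [this]
  exact M.inv_mem hy

theorem mul_z_mem (h : Hyp M z) {y : G} (hy : y ∈ M) : y * z ∈ normalizer (M : Set G) :=
  mul_mem (le_N hy) h.zN

/-- elements of odd order have square roots -/
theorem exists_sqrt [Finite G] (h : Hyp M z) {y : G} (hy : y ∈ M) : ∃ w ∈ M, w * w = y := by
  let φ : M → M := fun w => w * w
  have hinj : Function.Injective φ := by
    intro a b hab
    have h1 : (a : G) * a = b * b := congrArg Subtype.val hab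
    have h2 := h.comm a.2 b.2
    have h3 : ((a : G) * (b : G)⁻¹) * ((a : G) * (b : G)⁻¹) = 1 := by
      have h4 : (b : G)⁻¹ * a = a * (b : G)⁻¹ := h.comm (M.inv_mem b.2) a.2
      calc ((a : G) * (b : G)⁻¹) * ((a : G) * (b : G)⁻¹) = a * ((b : G)⁻¹ * a) * (b : G)⁻¹ := by group
        _ = a * (a * (b : G)⁻¹) * (b : G)⁻¹ := by rw [h4]
        _ = (a * a) * ((b : G) * b)⁻¹ := by group
        _ = 1 := by rw [h1]; group
    have h5 := h.eq_one_of_sq (M.mul_mem a.2 (M.inv_mem b.2)) h3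
    exact Subtype.ext (mul_inv_eq_one.mp h5)
  obtain ⟨w, hw⟩ := (Finite.surjective_of_injective hinj) ⟨y, hy⟩
  exact ⟨w, w.2, congrArg Subtype.val hw⟩

/-- two involutions outside `N(M)` in the same coset of `M` are equal -/
theorem eq_of_mul_mem (h : Hyp M z) {u v : G} (hu : u * u = 1) (hv : v * v = 1)
    (huN : u ∉ normalizer (M : Set G)) (huv : u * v ∈ M) : u = v := by
  by_contra hne
  have hui : u⁻¹ = u := inv_eq_of_mul_eq_one_left hu
  have hvi : v⁻¹ = v := inv_eq_of_mul_eq_one_left hv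
  apply huN
  refine h.ti u (u * v) huv ?_ ?_
  · intro h1
    apply hne
    rw [← hvi]
    exact eq_inv_of_mul_eq_one_left h1
  · have h1 : u * (u * v) * u⁻¹ = (u * v)⁻¹ := by
      rw [mul_inv_rev, hui, hvi, ← mul_assoc, hu, one_mul]
    rw [h1]
    exact M.inv_mem huv

end Hyp

end Cfsg.Agent.H272.TIInv
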