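import Cfsg.Agent.H272.TIInv.Cov
import Cfsg.Prelude.Def_LieExceptional

/-!
The case `C(z) ∩ N(M) ≠ ⟨z⟩`: `G` is a Zassenhaus group on the cosets of `N(M)`.
-/

set_option autoImplicit false

namespace Cfsg.Agent.H272.TIInv

open Subgroup

variable {G : Type*} [Group G] {M : Subgroup G} {z u : G}

structure Big (M : Subgroup G) (z u : G) : Prop extends Cov M z where
  uu : u * u = 1
  uN : u ∉ normalizer (M : Set G)
  uz : u * z = z * u
  ne2 : Nat.card (HH M z) ≠ 2

theorem Cov.exists_big [Finite G] (h : Cov M z) (hN : normalizer (M : Set G) ≠ ⊤)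
    (hne : Nat.card (HH M z) ≠ 2) : ∃ u, Big M z u := by
  obtain ⟨x, hx⟩ : ∃ x, x ∉ normalizer (M : Set G) := by
    by_contra hcon
    push Not at hcon
    exact hN ((Subgroup.eq_top_iff' _).mpr hcon)
  obtain ⟨y, hy, hxy⟩ := h.cov x hx
  have hxyN := Hyp.mul_not_mem hx hy
  obtain ⟨w, hw, hwz⟩ := h.exists_conj_comm hxy hxyN
  have hN' := Hyp.mul_not_mem (Hyp.mul_not_mem' hxyN (M.inv_mem hw)) hw
  exact ⟨_, { h with uu := h.sq_of_comm hN' hwz, uN := hN', uz := hwz, ne2 := hne }⟩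

/-- if `H` has exponent 2 then it has order 2 -/
theorem Hyp.card_HH_of_sq [Finite G] (h : Hyp M z) (hsq : ∀ k ∈ HH M z, k * k = 1) :
    Nat.card (HH M z) = 2 := by
  have hH : HH M z = Subgroup.zpowers z := by
    apply le_antisymm
    · intro k hk
      by_cases hk1 : k = 1
      · rw [hk1]; exact one_mem _
      · obtain ⟨hkN, hkz⟩ := mem_HH.mp hk
        obtain ⟨y, hy, rfl⟩ := h.exists_eq_of_mem_N (hsq k hk) hk1 hkN
        have hy1 : y = 1 := by
          refine h.eq_one_of_comm_z hy ?_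
          have h1 : y * z * z = z * (y * z) := hkz
          calc z * y = z * (y * z) * z⁻¹ := by group
            _ = y * z * z * z⁻¹ := by rw [h1]
            _ = y * z := by group
        rw [hy1, one_mul]
        exact Subgroup.mem_zpowers z
    · rw [Subgroup.zpowers_le]
      exact mem_HH.mpr ⟨h.zN, rfl⟩
  rw [hH, Nat.card_zpowers]
  exact orderOf_eq_prime (by rw [pow_two]; exact h.zz) h.z1

namespace Big

theorem u_inv (h : Big M z u) : u⁻¹ = u := inv_eq_of_mul_eq_one_left h.uu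

theorem inv_HH [Finite G] (h : Big M z u) {k : G} (hk : k ∈ HH M z) : u * k * u = k⁻¹ :=
  h.inv_of_comm h.uu h.uN h.uz (mem_HH.mp hk).1 (mem_HH.mp hk).2

theorem comm_HH [Finite G] (h : Big M z u) {a b : G} (ha : a ∈ HH M z) (hb : b ∈ HH M z) :
    a * b = b * a := by
  have h1 := h.inv_HH (mul_mem ha hb)
  have h2 : u * (a * b) * u = (u * a * u) * (u * b * u) := by
    calc u * (a * b) * u = u * a * (u * u) * b * u := by rw [h.uu]; group
      _ = (u * a * u) * (u * b * u) := by group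
  rw [h2, h.inv_HH ha, h.inv_HH hb] at h1
  have h3 : (a⁻¹ * b⁻¹)⁻¹ = (a * b)⁻¹⁻¹ := by rw [h1]
  rw [inv_inv, mul_inv_rev, inv_inv, inv_inv] at h3
  exact h3.symm

theorem mul_mem_HH [Finite G] (h : Big M z u) {x : G} (hx : x ∉ normalizer (M : Set G))
    (hxz : x * z = z * x) : u * x ∈ HH M z := by
  have hxx := h.sq_of_comm hx hxz
  have huxz : u * x * z = z * (u * x) := by
    calc u * x * z = u * (x * z) := by group
      _ = (u * z) * x := by rw [hxz]; group
      _ = z * (u * x) := by rw [h.uz]; group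
  rw [mem_HH]
  refine ⟨?_, huxz⟩
  by_contra hcon
  apply h.ne2
  apply h.card_HH_of_sq
  intro k hk
  obtain ⟨hkN, hkz⟩ := mem_HH.mp hk
  have h1 := h.sq_of_comm hcon huxz
  have h2 := h.inv_of_comm h1 hcon huxz hkN hkz
  have h3 := h.inv_of_comm hxx hx hxz hkN hkz
  have hxi : x⁻¹ = x := inv_eq_of_mul_eq_one_left hxx
  have h4 : u * x = x * u := by
    have h5 : (u * x)⁻¹ = u * x := inv_eq_of_mul_eq_one_left h1
    rw [mul_inv_rev, hxi, h.u_inv] at h5
    exact h5.symm
  have h5 : u * x * k * (u * x) = k := by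
    calc u * x * k * (u * x) = u * x * k * (x * u) := by rw [h4]
      _ = u * (x * k * x) * u := by group
      _ = u * k⁻¹ * u := by rw [h3]
      _ = k := by rw [h.inv_HH (inv_mem hk), inv_inv]
  rw [h5] at h2
  calc k * k = k * k⁻¹ := by rw [← h2]
    _ = 1 := mul_inv_cancel k

theorem card_c' [Finite G] (h : Big M z u) :
    Nat.card {x : G // x ∉ normalizer (M : Set G) ∧ x * z = z * x} = Nat.card (HH M z) := by
  refine Nat.card_congr
    { toFun := fun x => ⟨u * x, h.mul_mem_HH x.2.1 x.2.2⟩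
      invFun := fun k => ⟨u * k, ?_, ?_⟩
      left_inv := ?_
      right_inv := ?_ }
  · intro hcon
    apply h.uN
    have := mul_mem hcon (inv_mem (mem_HH.mp k.2).1)
    rwa [mul_inv_cancel_right] at this
  · have h1 := (mem_HH.mp k.2).2
    calc u * k * z = u * (k * z) := by group
      _ = (u * z) * k := by rw [h1]; group
      _ = z * (u * k) := by rw [h.uz]; group
  · intro x
    apply Subtype.ext
    show u * (u * x) = x
    rw [← mul_assoc, h.uu, one_mul]
  · intro k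
    apply Subtype.ext
    show u * (u * k) = k
    rw [← mul_assoc, h.uu, one_mul]

theorem card_G' [Finite G] (h : Big M z u) :
    Nat.card G = Nat.card (normalizer (M : Set G)) * (Nat.card M + 1) := by
  rw [h.card_G, h.card_c', h.card_N]; ring

theorem index_N [Finite G] (h : Big M z u) : (normalizer (M : Set G)).index = Nat.card M + 1 := by
  have h1 := (normalizer (M : Set G)).card_mul_index
  rw [h.card_G'] at h1
  exact Nat.eq_of_mul_eq_mul_left Nat.card_pos h1

theorem decomp [Finite G] (h : Big M z u) {x : G} (hx : x ∉ normalizer (M : Set G)) :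
    ∃ y ∈ M, ∃ k ∈ normalizer (M : Set G), x = y * u * k := by
  obtain ⟨w, hw, hxw⟩ := h.cov x hx
  have hxwN := Hyp.mul_not_mem hx hw
  obtain ⟨y, hy, hyz⟩ := h.exists_conj_comm hxw hxwN
  have hN' := Hyp.mul_not_mem (Hyp.mul_not_mem' hxwN (M.inv_mem hy)) hy
  have h1 := h.mul_mem_HH hN' hyz
  refine ⟨y, hy, (u * (y⁻¹ * (x * w) * y)) * y⁻¹ * w⁻¹, ?_, ?_⟩
  · exact mul_mem (mul_mem (mem_HH.mp h1).1 (inv_mem (le_N hy))) (inv_mem (le_N hw))
  · calc x = y * (y⁻¹ * (x * w) * y) * y⁻¹ * w⁻¹ := by group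
      _ = y * (u * u) * (y⁻¹ * (x * w) * y) * y⁻¹ * w⁻¹ := by rw [h.uu]; group
      _ = _ := by group

theorem uniq [Finite G] (h : Big M z u) {y y' : G} (hy : y ∈ M) (hy' : y' ∈ M)
    (he : (y * u)⁻¹ * (y' * u) ∈ normalizer (M : Set G)) : y = y' := by
  have h1 : u * (y⁻¹ * y') * u ∈ normalizer (M : Set G) := by
    have h2 : (y * u)⁻¹ * (y' * u) = u * (y⁻¹ * y') * u := by
      rw [mul_inv_rev, h.u_inv]; group
    rwa [h2] at he
  have h2 := h.eq_one_of_conj_mem h.uu h.uN (M.mul_mem (M.inv_mem hy) hy') h1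
  exact (inv_mul_eq_one.mp h2)

/-- only the identity fixes three points -/
theorem eq_one_of_three [Finite G] (h : Big M z u) {g y : G} (hg : g ∈ normalizer (M : Set G))
    (hug : u * g * u ∈ normalizer (M : Set G)) (hy : y ∈ M) (hy1 : y ≠ 1)
    (hyg : u * (y⁻¹ * g * y) * u ∈ normalizer (M : Set G)) : g = 1 := by
  have hgz := h.comm_of_mem h.uu h.uN h.uz hg hug
  have hg'N : y⁻¹ * g * y ∈ normalizer (M : Set G) :=
    mul_mem (mul_mem (inv_mem (le_N hy)) hg) (le_N hy)
  have hg'z := h.comm_of_mem h.uu h.uN h.uz hg'N hyg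
  -- `g` commutes with `y`
  have hgy : y⁻¹ * g * y = g := by
    have h1 : g⁻¹ * (y⁻¹ * g * y) = 1 := by
      refine h.eq_one_of_comm_z ?_ ?_
      · have h2 : g⁻¹ * (y⁻¹ * g * y) = (g⁻¹ * y⁻¹ * g) * y := by group
        rw [h2]
        exact M.mul_mem (conj_mem' hg (M.inv_mem hy)) hy
      · have h2 : z * g⁻¹ = g⁻¹ * z := by
          calc z * g⁻¹ = g⁻¹ * (g * z) * g⁻¹ := by group
            _ = g⁻¹ * z := by rw [hgz]; group
        calc z * (g⁻¹ * (y⁻¹ * g * y)) = (z * g⁻¹) * (y⁻¹ * g * y) := by group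
          _ = g⁻¹ * (z * (y⁻¹ * g * y)) := by rw [h2]; group
          _ = g⁻¹ * (y⁻¹ * g * y) * z := by rw [← hg'z]; group
    exact (inv_mul_eq_one.mp h1).symm
  by_contra hg1
  -- `C(g) ≤ N`
  have hCg : ∀ x : G, x * g = g * x → x ∈ normalizer (M : Set G) := by
    intro x hxg
    by_contra hxN
    obtain ⟨w, hw, hv⟩ := h.cov x hxN
    have hvN := Hyp.mul_not_mem hxN hw
    have hvi : (x * w)⁻¹ = x * w := inv_eq_of_mul_eq_one_left hv
    have h1 : (x * w) * g * (x * w) = w⁻¹ * g * w := by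
      have h2 : (x * w) * g * (x * w) = (x * w)⁻¹ * g * (x * w) := by rw [hvi]
      rw [h2]
      calc (x * w)⁻¹ * g * (x * w) = w⁻¹ * x⁻¹ * (g * x) * w := by group
        _ = w⁻¹ * g * w := by rw [← hxg]; group
    have h2 := h.inv_of_mem hv hvN hg (by
      rw [h1]; exact mul_mem (mul_mem (inv_mem (le_N hw)) hg) (le_N hw))
    rw [h1] at h2
    have h3 : g⁻¹ * g⁻¹ ∈ M := by
      have h4 : g⁻¹ * g⁻¹ = w⁻¹ * (g * w * g⁻¹) := by
        calc g⁻¹ * g⁻¹ = (w⁻¹ * g * w) * g⁻¹ := by rw [h2]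
          _ = w⁻¹ * (g * w * g⁻¹) := by group
      rw [h4]
      exact M.mul_mem (M.inv_mem hw) (conj_mem hg hw)
    have h4 : g⁻¹ * g⁻¹ = 1 := by
      refine h.eq_one_of_comm_z h3 ?_
      have h2 : z * g⁻¹ = g⁻¹ * z := by
        calc z * g⁻¹ = g⁻¹ * (g * z) * g⁻¹ := by group
          _ = g⁻¹ * z := by rw [hgz]; group
      calc z * (g⁻¹ * g⁻¹) = (z * g⁻¹) * g⁻¹ := by group
        _ = (g⁻¹ * z) * g⁻¹ := by rw [h2]
        _ = g⁻¹ * (z * g⁻¹) := by group
        _ = g⁻¹ * (g⁻¹ * z) := by rw [h2]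
        _ = g⁻¹ * g⁻¹ * z := by group
    have h5 : g * g = 1 := by
      have : (g⁻¹ * g⁻¹)⁻¹ = 1⁻¹ := by rw [h4]
      simpa using this
    apply hg1
    refine h.odd y hy hy1 g h5 ?_
    calc g * y = y * (y⁻¹ * g * y) := by group
      _ = y * g := by rw [hgy]
  have hug' := h.inv_of_mem h.uu h.uN hg hug
  apply hy1
  refine h.eq_one_of_conj_mem h.uu h.uN hy (hCg _ ?_)
  -- `u y u` commutes with `g`
  have hgi : g⁻¹ * y = y * g⁻¹ := by
    calc g⁻¹ * y = g⁻¹ * (y * g) * g⁻¹ := by group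
      _ = g⁻¹ * (y * (y⁻¹ * g * y)) * g⁻¹ := by rw [hgy]
      _ = y * g⁻¹ := by group
  calc u * y * u * g = u * y * (u * g * u) * u := by
        have : u * y * (u * g * u) * u = u * y * u * g * (u * u) := by group
        rw [this, h.uu, mul_one]
    _ = u * (y * g⁻¹) * u := by rw [hug']; group
    _ = u * (g⁻¹ * y) * u := by rw [hgi]
    _ = (u * g⁻¹ * u) * (u * y * u) := by
        have : (u * g⁻¹ * u) * (u * y * u) = u * g⁻¹ * (u * u) * y * u := by group
        rw [this, h.uu, mul_one]; group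
    _ = g * (u * y * u) := by
        have : u * g⁻¹ * u = g := by
          have h6 : (u * g * u)⁻¹ = g⁻¹⁻¹ := by rw [hug']
          rw [mul_inv_rev, mul_inv_rev, h.u_inv, inv_inv] at h6
          rw [mul_assoc]; exact h6
        rw [this]

/-! ### the action on the cosets of `N(M)` -/

theorem smul_mk (N : Subgroup G) (g x : G) : g • (x : G ⧸ N) = ((g * x : G) : G ⧸ N) := rfl

theorem mk_eq_one {N : Subgroup G} {x : G} : (x : G ⧸ N) = ((1 : G) : G ⧸ N) ↔ x ∈ N := by
  rw [eq_comm, QuotientGroup.eq, inv_one, one_mul]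

/-- the points other than `N` -/
theorem exists_point [Finite G] (h : Big M z u) {a : G ⧸ normalizer (M : Set G)}
    (ha : a ≠ ((1 : G) : G ⧸ normalizer (M : Set G))) :
    ∃ y ∈ M, a = ((y * u : G) : G ⧸ normalizer (M : Set G)) := by
  induction a using QuotientGroup.induction_on with
  | H x =>
    have hx : x ∉ normalizer (M : Set G) := fun hx => ha (mk_eq_one.mpr hx)
    obtain ⟨y, hy, k, hk, rfl⟩ := h.decomp hx
    refine ⟨y, hy, ?_⟩
    rw [QuotientGroup.eq]
    have h1 : (y * u * k)⁻¹ * (y * u) = k⁻¹ := by group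
    rw [h1]
    exact inv_mem hk

theorem point_ne (h : Big M z u) {y : G} (hy : y ∈ M) :
    ((y * u : G) : G ⧸ normalizer (M : Set G)) ≠ ((1 : G) : G ⧸ normalizer (M : Set G)) := by
  rw [Ne, mk_eq_one]
  exact Hyp.mul_not_mem' h.uN hy

/-- `G` moves `(N, u N)` to any pair of distinct points -/
theorem exists_move [Finite G] (h : Big M z u) {a b : G ⧸ normalizer (M : Set G)} (hab : a ≠ b) :
    ∃ g : G, g • ((1 : G) : G ⧸ normalizer (M : Set G)) = a ∧
      g • ((u : G) : G ⧸ normalizer (M : Set G)) = b := by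
  induction a using QuotientGroup.induction_on with
  | H x =>
    have h1 : x⁻¹ • b ≠ ((1 : G) : G ⧸ normalizer (M : Set G)) := by
      intro h2
      apply hab
      have h3 : b = x • (x⁻¹ • b) := by rw [smul_inv_smul]
      rw [h3, h2, smul_mk, mul_one]
    obtain ⟨y, hy, hyb⟩ := h.exists_point h1
    refine ⟨x * y, ?_, ?_⟩
    · rw [smul_mk, mul_one, QuotientGroup.eq]
      have h2 : (x * y)⁻¹ * x = y⁻¹ := by group
      rw [h2]
      exact inv_mem (le_N hy)
    · rw [mul_smul, smul_mk, ← hyb, smul_inv_smul]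

theorem two_trans [Finite G] (h : Big M z u) :
    MulAction.IsMultiplyPretransitive G (G ⧸ normalizer (M : Set G)) 2 := by
  rw [MulAction.is_two_pretransitive_iff]
  intro a b c d hab hcd
  obtain ⟨g, hg1, hg2⟩ := h.exists_move hab
  obtain ⟨k, hk1, hk2⟩ := h.exists_move hcd
  refine ⟨k * g⁻¹, ?_, ?_⟩
  · rw [mul_smul, ← hg1, inv_smul_smul, hk1]
  · rw [mul_smul, ← hg2, inv_smul_smul, hk2]

theorem mem_of_smul_one {g : G} (hg : g • ((1 : G) : G ⧸ normalizer (M : Set G)) =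
    ((1 : G) : G ⧸ normalizer (M : Set G))) : g ∈ normalizer (M : Set G) := by
  rw [smul_mk, mul_one] at hg
  exact mk_eq_one.mp hg

theorem mem_of_smul_u (h : Big M z u) {g : G} (hg : g • ((u : G) : G ⧸ normalizer (M : Set G)) =
    ((u : G) : G ⧸ normalizer (M : Set G))) : u * g * u ∈ normalizer (M : Set G) := by
  rw [smul_mk, QuotientGroup.eq] at hg
  have h1 := inv_mem hg
  have h2 : ((g * u)⁻¹ * u)⁻¹ = u * g * u := by
    rw [mul_inv_rev, inv_inv, h.u_inv]; group
  rwa [h2] at h1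

theorem no_three [Finite G] (h : Big M z u) (g : G) (a b c : G ⧸ normalizer (M : Set G))
    (hab : a ≠ b) (hbc : b ≠ c) (hac : a ≠ c) (ha : g • a = a) (hb : g • b = b) (hc : g • c = c) :
    g = 1 := by
  obtain ⟨k, hk1, hk2⟩ := h.exists_move hab
  have hfix : ∀ x y : G ⧸ normalizer (M : Set G), k • x = y → g • y = y → (k⁻¹ * g * k) • x = x := by
    intro x y hxy hy
    rw [mul_smul, mul_smul, hxy, hy, ← hxy, inv_smul_smul]
  have h1 := mem_of_smul_one (hfix _ _ hk1 ha)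
  have h2 := h.mem_of_smul_u (hfix _ _ hk2 hb)
  have hc1 : k⁻¹ • c ≠ ((1 : G) : G ⧸ normalizer (M : Set G)) := by
    intro h3
    apply hac
    rw [← hk1, ← h3, smul_inv_smul]
  obtain ⟨y, hy, hyc⟩ := h.exists_point hc1
  have hy1 : y ≠ 1 := by
    rintro rfl
    apply hbc
    rw [← hk2]
    rw [one_mul] at hyc
    rw [← hyc, smul_inv_smul]
  have h3 : (k⁻¹ * g * k) • (k⁻¹ • c) = k⁻¹ • c := hfix _ _ (smul_inv_smul k c) hc
  rw [hyc, smul_mk, QuotientGroup.eq] at h3
  have h4 : u * (y⁻¹ * (k⁻¹ * g * k) * y) * u ∈ normalizer (M : Set G) := by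
    have h5 := inv_mem h3
    have h6 : (((k⁻¹ * g * k) * (y * u))⁻¹ * (y * u))⁻¹ = u * (y⁻¹ * (k⁻¹ * g * k) * y) * u := by
      have h7 : (((k⁻¹ * g * k) * (y * u))⁻¹ * (y * u))⁻¹ = u⁻¹ * (y⁻¹ * (k⁻¹ * g * k) * y) * u := by
        group
      rw [h7, h.u_inv]
    rwa [h6] at h5
  have h5 := h.eq_one_of_three h1 h2 hy hy1 h4
  calc g = k * (k⁻¹ * g * k) * k⁻¹ := by group
    _ = 1 := by rw [h5]; group

end Big

end Cfsg.Agent.H272.TIInv
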