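import Cfsg.Agent.H272.TIInv.CaseTwo
import Cfsg.Agent.Involutions.BaerSuzuki
import Cfsg.Agent.Lib.Cores
import Cfsg.Agent.Lib.Dihedral
import Cfsg.Agent.S0058
import Cfsg.Prelude.Def_Transfer

/-!
The case `|M| = 2 ^ d + 1`: `G = O₂(G) N(M)` with `O₂(G)` elementary abelian of order `2 ^ (2 d)`.
-/

set_option autoImplicit false

namespace Cfsg.Agent.H272.TIInv

open Subgroup

variable {G : Type*} [Group G] {M : Subgroup G} {z : G}

/-- involutions of `N(M)` are conjugate to `z` -/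
theorem Hyp.conj_of_mem_N [Finite G] (h : Hyp M z) {t : G} (ht : t * t = 1) (ht1 : t ≠ 1)
    (htN : t ∈ normalizer (M : Set G)) : ∃ g : G, t = g * z * g⁻¹ := by
  obtain ⟨y, hy, rfl⟩ := h.exists_eq_of_mem_N ht ht1 htN
  obtain ⟨w, hw, hww⟩ := h.exists_sqrt hy
  refine ⟨w, ?_⟩
  have h2 : z * w⁻¹ = w * z := by
    have := h.z_mul (M.inv_mem hw)
    rwa [inv_inv] at this
  rw [mul_assoc w z, h2, ← mul_assoc, hww]

/-- a prime order element of order prime to `|G : M|` is conjugate into `M` -/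
theorem exists_conj_mem [Finite G] {p : ℕ} [Fact p.Prime] {w : G} (hw : orderOf w = p)
    (hp : ¬ p ∣ M.index) : ∃ g : G, g⁻¹ * w * g ∈ M := by
  have hP : IsPGroup p (Subgroup.zpowers w) := by
    rw [IsPGroup.iff_card, Nat.card_zpowers]
    exact ⟨1, by rw [hw, pow_one]⟩
  obtain ⟨x, hx⟩ := hP.nonempty_fixed_point_of_prime_not_dvd_card (α := G ⧸ M) hp
  induction x using QuotientGroup.induction_on with
  | H g =>
    refine ⟨g, ?_⟩
    have h1 := hx ⟨w, Subgroup.mem_zpowers w⟩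
    have h2 : ((w * g : G) : G ⧸ M) = (g : G ⧸ M) := h1
    have h3 := QuotientGroup.eq.mp h2.symm
    have h4 : g⁻¹ * (w * g) = g⁻¹ * w * g := by group
    rwa [h4] at h3

/-- an involution not conjugate to `z` lies in `O₂(G)` if `|G : M|` is a power of 2 -/
theorem Hyp.mem_pCore_of_not_conj [Finite G] (h : Hyp M z)
    (hidx : ∀ p : ℕ, p.Prime → p ∣ M.index → p = 2) {u : G} (hu : u * u = 1) (hu1 : u ≠ 1)
    (hnc : ∀ g : G, u ≠ g * z * g⁻¹) : u ∈ Cfsg.pCore 2 G := by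
  by_contra hcon
  have h0 : ¬ IsPGroup 2 (Subgroup.normalClosure {u} : Subgroup G) := fun hP =>
    hcon (Cfsg.Agent.Lib.Cores.le_pCore Subgroup.normalClosure_normal hP
      (Subgroup.subset_normalClosure rfl))
  obtain ⟨x, hx1, hxo, hux⟩ := Cfsg.Agent.Involutions.BaerSuzuki.exists_odd_inverted u hu h0
  have hne : orderOf x ≠ 1 := fun h1 => hx1 (orderOf_eq_one_iff.mp h1)
  set p := (orderOf x).minFac with hp
  have hpp : p.Prime := Nat.minFac_prime hne
  have : Fact p.Prime := ⟨hpp⟩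
  have hpd : p ∣ orderOf x := Nat.minFac_dvd _
  have hp2 : p ≠ 2 := by
    intro h2
    rw [h2] at hpd
    exact (Nat.not_even_iff_odd.mpr hxo) (even_iff_two_dvd.mpr hpd)
  obtain ⟨k, hk⟩ := hpd
  have hk0 : k ≠ 0 := by
    rintro rfl
    rw [mul_zero] at hk
    exact (orderOf_pos x).ne' hk
  have hw : orderOf (x ^ k) = p := by
    rw [orderOf_pow' x hk0, hk, Nat.gcd_eq_right (Dvd.intro_left p rfl)]
    exact Nat.mul_div_cancel _ (Nat.pos_of_ne_zero hk0)
  have huw : u * x ^ k * u⁻¹ = (x ^ k)⁻¹ := by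
    rw [← conj_pow, hux, inv_pow]
  obtain ⟨g, hg⟩ := exists_conj_mem (M := M) hw (fun hd => hp2 (hidx p hpp hd))
  set w := x ^ k with hwdef
  have hw1 : g⁻¹ * w * g ≠ 1 := by
    intro h1
    have h2 : w = 1 := by
      calc w = g * (g⁻¹ * w * g) * g⁻¹ := by group
        _ = 1 := by rw [h1]; group
    rw [h2, orderOf_one] at hw
    exact hpp.one_lt.ne hw
  have h1 : g⁻¹ * u * g ∈ normalizer (M : Set G) := by
    refine h.ti _ _ hg hw1 ?_
    have h2 : g⁻¹ * u * g * (g⁻¹ * w * g) * (g⁻¹ * u * g)⁻¹ = g⁻¹ * (u * w * u⁻¹) * g := by group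
    have h3 : g⁻¹ * (u * w * u⁻¹) * g = (g⁻¹ * w * g)⁻¹ := by rw [huw]; group
    rw [h2, h3]
    exact M.inv_mem hg
  obtain ⟨a, ha⟩ := h.conj_of_mem_N (t := g⁻¹ * u * g) (by
      calc g⁻¹ * u * g * (g⁻¹ * u * g) = g⁻¹ * (u * u) * g := by group
        _ = 1 := by rw [hu]; group) (by
      intro h2
      apply hu1
      calc u = g * (g⁻¹ * u * g) * g⁻¹ := by group
        _ = 1 := by rw [h2]; group) h1
  apply hnc (g * a)
  calc u = g * (g⁻¹ * u * g) * g⁻¹ := by group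
    _ = g * a * z * (g * a)⁻¹ := by rw [ha]; group

theorem Hyp.z_not_mem_pCore [Finite G] (h : Hyp M z) : z ∉ Cfsg.pCore 2 G := by
  intro hz
  obtain ⟨x, hx, hx1⟩ := h.exists_ne
  have hn := Cfsg.Agent.Lib.Cores.pCore_normal (G := G) 2
  have h1 : z * x * z⁻¹ * x⁻¹ ∈ Cfsg.pCore 2 G := by
    have h2 : x * z⁻¹ * x⁻¹ ∈ Cfsg.pCore 2 G := hn.conj_mem _ (inv_mem hz) x
    have := mul_mem hz h2
    have h3 : z * (x * z⁻¹ * x⁻¹) = z * x * z⁻¹ * x⁻¹ := by group
    rwa [h3] at this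
  have h2 : z * x * z⁻¹ * x⁻¹ = x⁻¹ * x⁻¹ := by
    rw [h.inverts h.zz h.z1 h.zN hx]
  rw [h2] at h1
  -- an element of odd order in a 2-group
  obtain ⟨k, hk⟩ := (Cfsg.Agent.Lib.Cores.pCore_isPGroup (G := G) 2) ⟨_, h1⟩
  have hk' : (x⁻¹ * x⁻¹) ^ 2 ^ k = 1 := congrArg Subtype.val hk
  have h3 : orderOf (x⁻¹ * x⁻¹) ∣ 2 ^ k := orderOf_dvd_of_pow_eq_one hk'
  have hmem : x⁻¹ * x⁻¹ ∈ M := M.mul_mem (M.inv_mem hx) (M.inv_mem hx)
  have h4 : orderOf (x⁻¹ * x⁻¹) ∣ Nat.card M := Subgroup.orderOf_dvd_natCard _ hmem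
  have hcop : Nat.Coprime (2 ^ k) (Nat.card M) :=
    Nat.Coprime.pow_left _ ((Nat.coprime_two_left).mpr h.odd_card)
  have h5 : orderOf (x⁻¹ * x⁻¹) = 1 := Nat.eq_one_of_dvd_coprimes hcop h3 h4
  have h6 : x⁻¹ * x⁻¹ = 1 := orderOf_eq_one_iff.mp h5
  have h7 := h.eq_one_of_sq (M.inv_mem hx) h6
  exact hx1 (inv_eq_one.mp h7)

/-- `M` acts without fixed points on a normal 2-subgroup `≠ 1`, so it is cyclic -/
theorem Hyp.isCyclic [Finite G] (h : Hyp M z) {E : Subgroup G} (hE : E.Normal) (hE2 : IsPGroup 2 E)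
    (hE1 : E ≠ ⊥) : IsCyclic M := by
  by_contra hnc
  have hcomm : IsMulCommutative M := ⟨⟨fun a b => Subtype.ext (h.comm a.2 b.2)⟩⟩
  have hME : M ≤ normalizer (E : Set G) := by
    rw [Subgroup.normalizer_eq_top_iff.mpr hE]; exact le_top
  have : Fact (Nat.Prime 2) := ⟨Nat.prime_two⟩
  obtain ⟨k, hk⟩ := IsPGroup.iff_card.mp hE2
  have hcop : (Nat.card M).Coprime (Nat.card E) := by
    rw [hk]
    exact Nat.Coprime.pow_right _ ((Nat.coprime_two_right).mpr h.odd_card)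
  have h1 := Cfsg.Agent.S0058.result M E hnc hME hcop
  apply hE1
  rw [← h1, iSup_eq_bot]
  intro a
  rw [iSup_eq_bot]
  rintro ⟨ha, ha1⟩
  rw [Subgroup.eq_bot_iff_forall]
  rintro x ⟨hxE, hxa⟩
  by_contra hx1
  -- a power of `x` is an involution
  obtain ⟨j, hj⟩ := hE2 ⟨x, hxE⟩
  have hj' : x ^ 2 ^ j = 1 := congrArg Subtype.val hj
  have hex : ∃ i, x ^ 2 ^ i = 1 := ⟨j, hj'⟩
  classical
  have hi := Nat.find_spec hex
  have hi0 : Nat.find hex ≠ 0 := by
    intro h0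
    rw [h0] at hi
    simp at hi
    exact hx1 hi
  obtain ⟨i, hi'⟩ : ∃ i, Nat.find hex = i + 1 := ⟨Nat.find hex - 1, by omega⟩
  have hlt := Nat.find_min hex (m := i) (by omega)
  rw [hi'] at hi
  refine hlt (h.odd a ha ha1 (x ^ 2 ^ i) ?_ ?_)
  · rw [← pow_add, ← two_mul, ← pow_succ']; exact hi
  · have hc : Commute x a := (Subgroup.mem_centralizer_singleton_iff.mp hxa)
    exact hc.pow_left _

theorem Cov.caseE [Finite G] (h : Cov M z) (h2 : Nat.card (HH M z) = 2) {d : ℕ} (hd : 1 ≤ d)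
    (hC : Nat.card (centralizer ({z} : Set G)) = 2 * 2 ^ d)
    (hI : Nat.card {g : G // g * g = 1 ∧ g ≠ 1} = Nat.card M * (2 * 2 ^ d - 1))
    (hM : Nat.card M = 2 ^ d + 1)
    (hi : (centralizer ({z} : Set G)).index = Nat.card M * 2 ^ d) :
    ∃ E : Subgroup G, E.Normal ∧ Cfsg.IsElementaryAbelian 2 E ∧ Nat.card E = 2 ^ (2 * d) ∧
      E ⊓ normalizer (M : Set G) = ⊥ ∧ E ⊔ normalizer (M : Set G) = ⊤ ∧
      Nonempty (normalizer (M : Set G) ≃* DihedralGroup (2 ^ d + 1)) := by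
  classical
  have : Fact (Nat.Prime 2) := ⟨Nat.prime_two⟩
  have hG : Nat.card G = 2 ^ (2 * d + 1) * Nat.card M := by
    rw [← (centralizer ({z} : Set G)).card_mul_index, hC, hi]; ring
  have hMpos : 0 < Nat.card M := Nat.card_pos
  have hidx : M.index = 2 ^ (2 * d + 1) := by
    have h3 := M.card_mul_index
    rw [hG, mul_comm] at h3
    exact Nat.eq_of_mul_eq_mul_right hMpos h3
  have hidx' : ∀ p : ℕ, p.Prime → p ∣ M.index → p = 2 := by
    intro p hp hpd
    rw [hidx] at hpd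
    exact (Nat.prime_dvd_prime_iff_eq hp Nat.prime_two).mp (hp.dvd_of_dvd_pow hpd)
  let Q : Subgroup G := Cfsg.pCore 2 G
  have hQn : Q.Normal := Cfsg.Agent.Lib.Cores.pCore_normal 2
  have hQ2 : IsPGroup 2 Q := Cfsg.Agent.Lib.Cores.pCore_isPGroup 2
  have hzQ : z ∉ Q := h.z_not_mem_pCore
  -- counting
  let I := {g : G // g * g = 1 ∧ g ≠ 1}
  let P : I → Prop := fun t => ∃ g : G, (t : G) = g * z * g⁻¹
  have hsplit : Nat.card I = Nat.card {t : I // P t} + Nat.card {t : I // ¬ P t} := by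
    rw [← Nat.card_congr (Equiv.sumCompl P), Nat.card_sum]
  have hK : Nat.card {t : I // P t} ≤ (centralizer ({z} : Set G)).index := by
    let φ : {t : I // P t} → G ⧸ (centralizer ({z} : Set G)) := fun t => (t.2.choose : G ⧸ _)
    refine Nat.card_le_card_of_injective φ ?_
    intro s t hst
    have h3 := QuotientGroup.eq.mp hst
    have h4 := Subgroup.mem_centralizer_singleton_iff.mp h3
    have hs := s.2.choose_spec
    have ht := t.2.choose_spec
    set a := s.2.choose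
    set b := t.2.choose
    apply Subtype.ext
    apply Subtype.ext
    rw [hs, ht]
    calc a * z * a⁻¹ = a * (z * (a⁻¹ * b)) * b⁻¹ := by group
      _ = a * (a⁻¹ * b * z) * b⁻¹ := by rw [h4]
      _ = b * z * b⁻¹ := by group
  have hinQ : ∀ t : {t : I // ¬ P t}, ((t : I) : G) ∈ Q := fun t =>
    h.mem_pCore_of_not_conj hidx' t.1.2.1 t.1.2.2 (fun g hg => t.2 ⟨g, hg⟩)
  let ψ : Option {t : I // ¬ P t} → Q := fun o => match o with
    | none => 1
    | some t => ⟨t, hinQ t⟩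
  have hψ : Function.Injective ψ := by
    rintro (_ | s) (_ | t) hst
    · rfl
    · exfalso
      have h3 : ((ψ none : Q) : G) = ψ (some t) := by rw [hst]
      exact t.1.2.2 h3.symm
    · exfalso
      have h3 : ((ψ (some s) : Q) : G) = ψ none := by rw [hst]
      exact s.1.2.2 h3
    · have h3 : ((ψ (some s) : Q) : G) = ψ (some t) := by rw [hst]
      rw [Subtype.ext (Subtype.ext h3)]
  have hcard1 : Nat.card {t : I // ¬ P t} + 1 ≤ Nat.card Q := by
    have := Nat.card_le_card_of_injective ψ hψ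
    rwa [Finite.card_option] at this
  have h2d : 1 ≤ 2 ^ d := Nat.one_le_two_pow
  have hpow : 2 ^ (2 * d) ≤ Nat.card {t : I // ¬ P t} + 1 := by
    have h3 : Nat.card I = (2 ^ d + 1) * (2 * 2 ^ d - 1) := by rw [← hM]; exact hI
    rw [h3] at hsplit
    rw [hi, hM] at hK
    obtain ⟨a, ha⟩ : ∃ a, 2 ^ d = a + 1 := ⟨2 ^ d - 1, by omega⟩
    have h4 : 2 ^ (2 * d) = (a + 1) * (a + 1) := by rw [two_mul, pow_add, ha]
    rw [h4]
    rw [ha] at hsplit hK
    have h5 : 2 * (a + 1) - 1 = 2 * a + 1 := by omega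
    rw [h5] at hsplit
    nlinarith
  -- the order of `Q`
  obtain ⟨k, hk⟩ := IsPGroup.iff_card.mp hQ2
  have hkle : k ≤ 2 * d + 1 := by
    have h3 : 2 ^ k ∣ 2 ^ (2 * d + 1) * Nat.card M := by
      rw [← hk, ← hG]; exact Q.card_subgroup_dvd_card
    have h4 : 2 ^ k ∣ 2 ^ (2 * d + 1) :=
      (Nat.Coprime.pow_left _ ((Nat.coprime_two_left).mpr h.odd_card)).dvd_of_dvd_mul_right h3
    exact (Nat.pow_dvd_pow_iff_le_right (by norm_num)).mp h4
  have hkge : 2 * d ≤ k := by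
    have h3 : 2 ^ (2 * d) ≤ 2 ^ k := by rw [← hk]; exact hpow.trans hcard1
    exact (Nat.pow_le_pow_iff_right (by norm_num)).mp h3
  have hkne : k ≠ 2 * d + 1 := by
    intro hke
    apply hzQ
    have h3 : Q.index = Nat.card M := by
      have h4 := Q.card_mul_index
      rw [hk, hke, hG] at h4
      exact Nat.eq_of_mul_eq_mul_left (by positivity) h4
    have h4 : ((z : G) : G ⧸ Q) = 1 := by
      have h5 : orderOf ((z : G) : G ⧸ Q) ∣ 2 := by
        apply orderOf_dvd_of_pow_eq_one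
        rw [pow_two, ← QuotientGroup.mk_mul, h.zz]; rfl
      have h6 : orderOf ((z : G) : G ⧸ Q) ∣ Nat.card M := by
        rw [← h3]; exact orderOf_dvd_natCard _
      have h7 : orderOf ((z : G) : G ⧸ Q) = 1 :=
        Nat.eq_one_of_dvd_coprimes ((Nat.coprime_two_left).mpr h.odd_card) h5 h6
      exact orderOf_eq_one_iff.mp h7
    exact (QuotientGroup.eq_one_iff z).mp h4
  have hk2 : k = 2 * d := by omega
  rw [hk2] at hk
  -- all elements of `Q` are involutions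
  have hbij : Function.Bijective ψ := by
    refine (Nat.bijective_iff_injective_and_card ψ).mpr ⟨hψ, ?_⟩
    rw [Finite.card_option]
    omega
  have hsqQ : ∀ x ∈ Q, x * x = 1 := by
    intro x hx
    obtain ⟨o, ho⟩ := hbij.2 ⟨x, hx⟩
    have ho' : ((ψ o : Q) : G) = x := by rw [ho]
    rcases o with _ | t
    · have h3 : (1 : G) = x := ho'
      rw [← h3, one_mul]
    · have h3 : ((t : I) : G) = x := ho'
      rw [← h3]
      exact t.1.2.1
  have hQel : Cfsg.IsElementaryAbelian 2 Q := by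
    refine ⟨⟨⟨fun a b => Subtype.ext ?_⟩⟩, fun a ha => by rw [pow_two]; exact hsqQ a ha⟩
    have h3 := hsqQ _ (Q.mul_mem a.2 b.2)
    have h4 := hsqQ _ a.2
    have h5 := hsqQ _ b.2
    show (a : G) * b = b * a
    have h6 : (a : G)⁻¹ = a := inv_eq_of_mul_eq_one_left h4
    have h7 : (b : G)⁻¹ = b := inv_eq_of_mul_eq_one_left h5
    have h8 : ((a : G) * b)⁻¹ = a * b := inv_eq_of_mul_eq_one_left h3
    rw [← h8, mul_inv_rev, h6, h7]
  have hQN : Q ⊓ normalizer (M : Set G) = ⊥ := by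
    rw [Subgroup.eq_bot_iff_forall]
    rintro x ⟨hxQ, hxN⟩
    by_contra hx1
    obtain ⟨g, hg⟩ := h.conj_of_mem_N (hsqQ x hxQ) hx1 hxN
    apply hzQ
    have h3 : g⁻¹ * x * g⁻¹⁻¹ ∈ Q := hQn.conj_mem x hxQ g⁻¹
    have h4 : g⁻¹ * x * g⁻¹⁻¹ = z := by rw [hg]; group
    rwa [h4] at h3
  have hNcard : Nat.card (normalizer (M : Set G)) = 2 * (2 ^ d + 1) := by
    rw [h.card_N, h2, hM, mul_comm]
  have hcompl : Q.IsComplement' (normalizer (M : Set G)) := by
    apply Subgroup.isComplement'_of_card_mul_and_disjoint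
    · rw [hk, hNcard, hG, hM]; ring
    · rw [disjoint_iff]; exact hQN
  refine ⟨Q, hQn, hQel, hk, hQN, hcompl.sup_eq_top, ?_⟩
  have hQ1 : Q ≠ ⊥ := by
    intro h0
    have h3 : Nat.card Q = 1 := by rw [h0]; exact Subgroup.card_bot
    rw [hk] at h3
    have h4 : 1 < 2 ^ (2 * d) := Nat.one_lt_two_pow (by omega)
    omega
  have hcyc := h.isCyclic hQn hQ2 hQ1
  obtain ⟨⟨r, hrM⟩, hr⟩ := hcyc.exists_generator
  have hro : orderOf r = 2 ^ d + 1 := by
    have h3 := orderOf_eq_card_of_forall_mem_zpowers hr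
    rw [hM] at h3
    rw [← h3]
    exact (Subgroup.orderOf_mk r hrM).symm
  refine Cfsg.Agent.Lib.Dihedral.nonempty_mulEquiv_subgroup (by positivity) _ r z
    (le_N hrM) h.zN hro h.zz (h.z_conj hrM) ?_ hNcard
  intro hz
  exact h.z_not_mem ((Subgroup.zpowers_le.mpr hrM) hz)

end Cfsg.Agent.H272.TIInv
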