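import Cfsg.Agent.H272.TIInv.Cov

/-!
The case `C(z) ∩ N(M) = ⟨z⟩`: `C(z)` is elementary abelian, of order `q`, and `|M|` is `q + 1` or
`q / 2 + 1`.
-/

set_option autoImplicit false

namespace Cfsg.Agent.H272.TIInv

open Subgroup

theorem num_aux {c m k : ℕ} (hc : 2 ≤ c) (hcm : Nat.Coprime c m) (hm : 1 < m)
    (hk : c * k = m * (m * (c - 1) + 1)) (hle : k ≤ m * (2 * c - 1)) :
    (m = 2 * c + 1 ∧ k = m * (2 * c - 1)) ∨ (m = c + 1 ∧ k = m * c) := by
  obtain ⟨d, rfl⟩ : ∃ d, c = d + 1 := ⟨c - 1, by omega⟩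
  obtain ⟨n, rfl⟩ : ∃ n, m = n + 1 := ⟨m - 1, by omega⟩
  rw [Nat.add_sub_cancel] at hk
  have h1 : (d + 1) ∣ (n + 1) * ((n + 1) * d + 1) := ⟨k, hk.symm⟩
  have h2 : (d + 1) ∣ (n + 1) * d + 1 := hcm.dvd_of_dvd_mul_left h1
  have h3 : (d + 1) ∣ n := by
    have h4 : (n + 1) * (d + 1) = ((n + 1) * d + 1) + n := by ring
    have h5 : (d + 1) ∣ ((n + 1) * d + 1) + n := by rw [← h4]; exact Dvd.intro_left _ rfl
    exact (Nat.dvd_add_right h2).mp h5
  obtain ⟨b, rfl⟩ := h3
  have h6 : k = ((d + 1) * b + 1) * (b * d + 1) := by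
    have h7 : (d + 1) * k = (d + 1) * (((d + 1) * b + 1) * (b * d + 1)) := by
      rw [hk]; ring
    exact Nat.eq_of_mul_eq_mul_left (by omega) h7
  have h8 : 2 * (d + 1) - 1 = 2 * d + 1 := by omega
  rw [h8] at hle ⊢
  rw [h6] at hle
  have h9 : b * d + 1 ≤ 2 * d + 1 := Nat.le_of_mul_le_mul_left hle (by omega)
  have hd : 1 ≤ d := by omega
  have h10 : b ≤ 2 := by
    by_contra hcon
    push Not at hcon
    have : 3 * d ≤ b * d := Nat.mul_le_mul_right d hcon
    omega
  have h11 : 1 ≤ b := by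
    rcases Nat.eq_zero_or_pos b with h0 | h0
    · rw [h0] at hm; omega
    · exact h0
  interval_cases b
  · right
    refine ⟨by ring, ?_⟩
    rw [h6]; ring
  · left
    refine ⟨by ring, ?_⟩
    rw [h6]

variable {G : Type*} [Group G] {M : Subgroup G} {z : G}

namespace Cov

theorem HH_eq [Finite G] (h : Cov M z) (h2 : Nat.card (HH M z) = 2) {x : G} (hx : x ∈ HH M z) :
    x = 1 ∨ x = z := by
  by_contra hcon
  push Not at hcon
  have hz : z ∈ HH M z := mem_HH.mpr ⟨h.zN, rfl⟩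
  let f : Fin 3 → HH M z := ![1, ⟨z, hz⟩, ⟨x, hx⟩]
  have hf : Function.Injective f := by
    intro i j hij
    fin_cases i <;> fin_cases j <;> simp [f, Subtype.ext_iff] at hij ⊢
    · exact h.z1 hij.symm
    · exact hcon.1 hij.symm
    · exact h.z1 hij
    · exact hcon.2 hij.symm
    · exact hcon.1 hij
    · exact hcon.2 hij
  have h3 := Nat.card_le_card_of_injective f hf
  rw [h2, Nat.card_fin] at h3
  omega

theorem sq_C [Finite G] (h : Cov M z) (h2 : Nat.card (HH M z) = 2) {x : G} (hx : x * z = z * x) :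
    x * x = 1 := by
  by_cases hxN : x ∈ normalizer (M : Set G)
  · rcases h.HH_eq h2 (mem_HH.mpr ⟨hxN, hx⟩) with rfl | rfl
    · exact one_mul 1
    · exact h.zz
  · exact h.sq_of_comm hxN hx

theorem isPGroup_C [Finite G] (h : Cov M z) (h2 : Nat.card (HH M z) = 2) :
    IsPGroup 2 (centralizer ({z} : Set G)) := by
  intro x
  refine ⟨1, Subtype.ext ?_⟩
  rw [pow_one, pow_two]
  exact h.sq_C h2 (Subgroup.mem_centralizer_singleton_iff.mp x.2)

/-- the numbers -/
theorem exists_numbers [Finite G] (h : Cov M z) (h2 : Nat.card (HH M z) = 2)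
    (hN : normalizer (M : Set G) ≠ ⊤) : ∃ d : ℕ, 1 ≤ d ∧
      Nat.card (centralizer ({z} : Set G)) = 2 * 2 ^ d ∧
      Nat.card {g : G // g * g = 1 ∧ g ≠ 1} = Nat.card M * (2 * 2 ^ d - 1) ∧
      ((Nat.card M = 2 * 2 ^ d + 1 ∧
          (centralizer ({z} : Set G)).index = Nat.card {g : G // g * g = 1 ∧ g ≠ 1}) ∨
        (Nat.card M = 2 ^ d + 1 ∧ (centralizer ({z} : Set G)).index = Nat.card M * 2 ^ d)) := by
  have : Fact (Nat.Prime 2) := ⟨Nat.prime_two⟩
  obtain ⟨e, he⟩ := IsPGroup.iff_card.mp (h.isPGroup_C h2)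
  set c' := Nat.card {x : G // x ∉ normalizer (M : Set G) ∧ x * z = z * x} with hc'
  have hC := h.card_C
  rw [h2, he, ← hc'] at hC
  -- `c' ≥ 1`
  have hc1 : 1 ≤ c' := by
    obtain ⟨x, hx⟩ : ∃ x, x ∉ normalizer (M : Set G) := by
      by_contra hcon
      push Not at hcon
      exact hN ((Subgroup.eq_top_iff' _).mpr hcon)
    obtain ⟨y, hy, hxy⟩ := h.cov x hx
    have hxyN := Hyp.mul_not_mem hx hy
    obtain ⟨w, hw, hwz⟩ := h.exists_conj_comm hxy hxyN
    have : Nonempty {x : G // x ∉ normalizer (M : Set G) ∧ x * z = z * x} :=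
      ⟨⟨_, Hyp.mul_not_mem (Hyp.mul_not_mem' hxyN (M.inv_mem hw)) hw, hwz⟩⟩
    exact Nat.card_pos
  obtain ⟨d, hd⟩ : ∃ d, e = d + 1 := by
    cases e with
    | zero => simp at hC; omega
    | succ d => exact ⟨d, rfl⟩
  subst hd
  have hd1 : 1 ≤ d := by
    rcases Nat.eq_zero_or_pos d with h0 | h0
    · subst h0; norm_num at hC; omega
    · exact h0
  have h2d : 2 ^ (d + 1) = 2 * 2 ^ d := by ring
  rw [h2d] at hC he
  have h2le : 2 ≤ 2 ^ d := by
    calc 2 = 2 ^ 1 := rfl
      _ ≤ 2 ^ d := Nat.pow_le_pow_right (by norm_num) hd1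
  have hI : Nat.card {g : G // g * g = 1 ∧ g ≠ 1} = Nat.card M * (2 * 2 ^ d - 1) := by
    rw [h.card_I, h.card_J, ← hc']
    have : 2 * 2 ^ d - 1 = c' + 1 := by omega
    rw [this]; ring
  -- the conjugacy class of `z`
  let C := centralizer ({z} : Set G)
  let φ : G ⧸ C → {g : G // g * g = 1 ∧ g ≠ 1} := Quotient.lift
    (fun g : G => (⟨g * z * g⁻¹, by
      constructor
      · calc g * z * g⁻¹ * (g * z * g⁻¹) = g * (z * z) * g⁻¹ := by group
          _ = 1 := by rw [h.zz]; group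
      · intro h3
        exact h.z1 (by simpa using h3)⟩ : {g : G // g * g = 1 ∧ g ≠ 1})) (by
      intro a b hab
      have h3 : a⁻¹ * b ∈ C := QuotientGroup.leftRel_apply.mp hab
      have h4 := Subgroup.mem_centralizer_singleton_iff.mp h3
      apply Subtype.ext
      show a * z * a⁻¹ = b * z * b⁻¹
      calc a * z * a⁻¹ = a * (z * (a⁻¹ * b)) * b⁻¹ := by group
        _ = a * (a⁻¹ * b * z) * b⁻¹ := by rw [h4]
        _ = b * z * b⁻¹ := by group)
  have hφ : Function.Injective φ := by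
    intro a b
    refine Quotient.inductionOn₂ a b ?_
    intro a b hab
    have h3 : a * z * a⁻¹ = b * z * b⁻¹ := congrArg Subtype.val hab
    apply Quotient.sound
    refine QuotientGroup.leftRel_apply.mpr (Subgroup.mem_centralizer_singleton_iff.mpr ?_)
    calc a⁻¹ * b * z = a⁻¹ * (b * z * b⁻¹) * b := by group
      _ = a⁻¹ * (a * z * a⁻¹) * b := by rw [h3]
      _ = z * (a⁻¹ * b) := by group
  have hk : C.index ≤ Nat.card {g : G // g * g = 1 ∧ g ≠ 1} :=
    Nat.card_le_card_of_injective φ hφ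
  have hG := h.card_G
  rw [h2, ← hc'] at hG
  have hCi := C.card_mul_index
  have hCc : Nat.card C = 2 * 2 ^ d := he
  rw [hCc, hG] at hCi
  have hodd := h.odd_card
  have hcop : Nat.Coprime (2 ^ d) (Nat.card M) := by
    apply Nat.Coprime.pow_left
    exact (Nat.coprime_two_left).mpr hodd
  have hm : 1 < Nat.card M := by
    rw [Subgroup.one_lt_card_iff_ne_bot]
    exact h.ne
  have hkey : 2 ^ d * C.index = Nat.card M * (Nat.card M * (2 ^ d - 1) + 1) := by
    have h3 : c' = 2 * (2 ^ d - 1) := by omega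
    rw [h3] at hCi
    have h4 : 2 * (2 ^ d * C.index) = 2 * (Nat.card M * (Nat.card M * (2 ^ d - 1) + 1)) := by
      calc 2 * (2 ^ d * C.index) = 2 * 2 ^ d * C.index := by ring
        _ = _ := by rw [hCi]; ring
    exact Nat.eq_of_mul_eq_mul_left (by norm_num) h4
  rw [hI] at hk
  refine ⟨d, hd1, he, hI, ?_⟩
  rcases num_aux h2le hcop hm hkey hk with ⟨h3, h4⟩ | ⟨h3, h4⟩
  · exact Or.inl ⟨h3, by rw [hI]; exact h4⟩
  · exact Or.inr ⟨h3, h4⟩

/-- if the class of `z` has as many elements as there are involutions then it contains all -/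
theorem exists_conj_of_index [Finite G] (h : Cov M z)
    (hi : (centralizer ({z} : Set G)).index = Nat.card {g : G // g * g = 1 ∧ g ≠ 1}) {t : G}
    (ht : t * t = 1) (ht1 : t ≠ 1) : ∃ g : G, t = g * z * g⁻¹ := by
  let C := centralizer ({z} : Set G)
  let φ : G ⧸ C → {g : G // g * g = 1 ∧ g ≠ 1} := Quotient.lift
    (fun g : G => (⟨g * z * g⁻¹, by
      constructor
      · calc g * z * g⁻¹ * (g * z * g⁻¹) = g * (z * z) * g⁻¹ := by group
          _ = 1 := by rw [h.zz]; group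
      · intro h3
        exact h.z1 (by simpa using h3)⟩ : {g : G // g * g = 1 ∧ g ≠ 1})) (by
      intro a b hab
      have h3 : a⁻¹ * b ∈ C := QuotientGroup.leftRel_apply.mp hab
      have h4 := Subgroup.mem_centralizer_singleton_iff.mp h3
      apply Subtype.ext
      show a * z * a⁻¹ = b * z * b⁻¹
      calc a * z * a⁻¹ = a * (z * (a⁻¹ * b)) * b⁻¹ := by group
        _ = a * (a⁻¹ * b * z) * b⁻¹ := by rw [h4]
        _ = b * z * b⁻¹ := by group)
  have hφ : Function.Injective φ := by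
    intro a b
    refine Quotient.inductionOn₂ a b ?_
    intro a b hab
    have h3 : a * z * a⁻¹ = b * z * b⁻¹ := congrArg Subtype.val hab
    apply Quotient.sound
    refine QuotientGroup.leftRel_apply.mpr (Subgroup.mem_centralizer_singleton_iff.mpr ?_)
    calc a⁻¹ * b * z = a⁻¹ * (b * z * b⁻¹) * b := by group
      _ = a⁻¹ * (a * z * a⁻¹) * b := by rw [h3]
      _ = z * (a⁻¹ * b) := by group
  have hbij := (Nat.bijective_iff_injective_and_card φ).mpr ⟨hφ, hi⟩
  obtain ⟨a, ha⟩ := hbij.2 ⟨t, ht, ht1⟩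
  induction a using Quotient.inductionOn with
  | h g => exact ⟨g, (congrArg Subtype.val ha).symm⟩

end Cov

end Cfsg.Agent.H272.TIInv
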