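import Cfsg.Agent.H272.TIInv.PSL

/-!
The case `C(z) ∩ N(M) ≠ ⟨z⟩`: identification of `G` with `PGL(2, F)`.
-/

set_option autoImplicit false

namespace Cfsg.Agent.H272.TIInv

open Subgroup

variable {G : Type*} [Group G] {M : Subgroup G} {z u : G}

namespace Big

theorem conj_smul [Finite G] (h : Big M z u) {k : G} (hk : k ∈ HH M z) (y : G) :
    k • ((y * u : G) : G ⧸ normalizer (M : Set G)) =
      ((k * y * k⁻¹ * u : G) : G ⧸ normalizer (M : Set G)) := by
  rw [smul_mk, QuotientGroup.eq]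
  have h1 : (k * (y * u))⁻¹ * (k * y * k⁻¹ * u) = u⁻¹ * k⁻¹ * u := by group
  rw [h1, h.u_inv, h.inv_HH (inv_mem hk), inv_inv]
  exact (mem_HH.mp hk).1

theorem eq_one_of_comm_M [Finite G] (h : Big M z u) {k y : G} (hk : k ∈ HH M z) (hy : y ∈ M)
    (hy1 : y ≠ 1) (hky : k * y = y * k) : k = 1 := by
  have hkN := (mem_HH.mp hk).1
  have h1 : u * k * u ∈ normalizer (M : Set G) := by
    rw [h.inv_HH hk]; exact inv_mem hkN
  refine h.eq_one_of_three hkN h1 hy hy1 ?_
  have h2 : y⁻¹ * k * y = k := by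
    calc y⁻¹ * k * y = y⁻¹ * (k * y) := by group
      _ = k := by rw [hky]; group
  rw [h2]
  exact h1

/-- `C(z) ∩ N(M)` is transitive on `M ∖ 1` -/
theorem transitive [Finite G] (h : Big M z u) (hgt : Nat.card M - 1 < 2 * Nat.card (HH M z))
    {x y : G} (hx : x ∈ M) (hx1 : x ≠ 1) (hy : y ∈ M) (hy1 : y ≠ 1) :
    ∃ k ∈ HH M z, k * y * k⁻¹ = x := by
  classical
  by_contra hcon
  push Not at hcon
  have hinj : ∀ w ∈ M, w ≠ 1 → ∀ k ∈ HH M z, ∀ l ∈ HH M z, k * w * k⁻¹ = l * w * l⁻¹ → k = l := by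
    intro w hw hw1 k hk l hl hkl
    have h1 : l⁻¹ * k = 1 := by
      refine h.eq_one_of_comm_M (mul_mem (inv_mem hl) hk) hw hw1 ?_
      calc l⁻¹ * k * w = l⁻¹ * (k * w * k⁻¹) * k := by group
        _ = w * (l⁻¹ * k) := by rw [hkl]; group
    exact (inv_mul_eq_one.mp h1).symm
  have hmem : ∀ w ∈ M, w ≠ 1 → ∀ k : HH M z, (k : G) * w * (k : G)⁻¹ ∈ M ∧
      (k : G) * w * (k : G)⁻¹ ≠ 1 := by
    intro w hw hw1 k
    refine ⟨conj_mem (mem_HH.mp k.2).1 hw, ?_⟩
    intro h1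
    apply hw1
    calc w = (k : G)⁻¹ * ((k : G) * w * (k : G)⁻¹) * k := by group
      _ = 1 := by rw [h1]; group
  let f : HH M z ⊕ HH M z → {w : M // w ≠ 1} := Sum.elim
    (fun (k : HH M z) => (⟨⟨(k : G) * y * (k : G)⁻¹, (hmem y hy hy1 k).1⟩,
      fun h1 => (hmem y hy hy1 k).2 (congrArg Subtype.val h1)⟩ : {w : M // w ≠ 1}))
    (fun (k : HH M z) => (⟨⟨(k : G) * x * (k : G)⁻¹, (hmem x hx hx1 k).1⟩,
      fun h1 => (hmem x hx hx1 k).2 (congrArg Subtype.val h1)⟩ : {w : M // w ≠ 1}))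
  have hne : ∀ k l : HH M z, (k : G) * y * (k : G)⁻¹ ≠ (l : G) * x * (l : G)⁻¹ := by
    intro k l hkl
    apply hcon _ (mul_mem (inv_mem l.2) k.2)
    calc ((l : G)⁻¹ * k) * y * ((l : G)⁻¹ * k)⁻¹ = (l : G)⁻¹ * (k * y * (k : G)⁻¹) * l := by group
      _ = x := by rw [hkl]; group
  have hf : Function.Injective f := by
    rintro (k | k) (l | l) hkl
    · have h1 : (k : G) * y * (k : G)⁻¹ = (l : G) * y * (l : G)⁻¹ :=
        congrArg (fun s : {w : M // w ≠ 1} => ((s : M) : G)) hkl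
      rw [Subtype.ext (hinj y hy hy1 k k.2 l l.2 h1)]
    · exact absurd (congrArg (fun s : {w : M // w ≠ 1} => ((s : M) : G)) hkl) (hne k l)
    · exact absurd (congrArg (fun s : {w : M // w ≠ 1} => ((s : M) : G)) hkl).symm (hne l k)
    · have h1 : (k : G) * x * (k : G)⁻¹ = (l : G) * x * (l : G)⁻¹ :=
        congrArg (fun s : {w : M // w ≠ 1} => ((s : M) : G)) hkl
      rw [Subtype.ext (hinj x hx hx1 k k.2 l l.2 h1)]
  have h1 := Nat.card_le_card_of_injective f hf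
  rw [Nat.card_sum] at h1
  have h2 : Nat.card {w : M // w ≠ 1} = Nat.card M - 1 := by
    have : Fintype M := Fintype.ofFinite _
    rw [Nat.card_eq_fintype_card, Nat.card_eq_fintype_card, Fintype.card_subtype_compl,
      Fintype.card_subtype_eq]
  omega

/-- choice of the involution fixing a third point -/
theorem exists_swap [Finite G] (h : Big M z u) (hgt : Nat.card M - 1 < 2 * Nat.card (HH M z))
    {y : G} (hy : y ∈ M) (hy1 : y ≠ 1) :
    ∃ t : G, Big M z t ∧ t • ((1 : G) : G ⧸ normalizer (M : Set G)) = ((u : G) : G ⧸ normalizer (M : Set G)) ∧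
      t • ((u : G) : G ⧸ normalizer (M : Set G)) = ((1 : G) : G ⧸ normalizer (M : Set G)) ∧
      t • ((y * u : G) : G ⧸ normalizer (M : Set G)) = ((y * u : G) : G ⧸ normalizer (M : Set G)) := by
  have hP : u • ((y * u : G) : G ⧸ normalizer (M : Set G)) ≠ ((1 : G) : G ⧸ normalizer (M : Set G)) := by
    rw [smul_mk, Ne, mk_eq_one]
    intro h1
    apply hy1
    refine h.eq_one_of_conj_mem h.uu h.uN hy ?_
    rwa [mul_assoc]
  obtain ⟨x, hx, hxu⟩ := h.exists_point hP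
  have hx1 : x ≠ 1 := by
    rintro rfl
    rw [one_mul, smul_mk, QuotientGroup.eq] at hxu
    apply Hyp.mul_not_mem' h.uN hy
    have h1 := inv_mem hxu
    have h2 : ((u * (y * u))⁻¹ * u)⁻¹ = u⁻¹ * u * (y * u) := by group
    rw [h2] at h1
    simpa using h1
  obtain ⟨k, hk, hkx⟩ := h.transitive hgt hx hx1 hy hy1
  have hki : u * k⁻¹ * u = k := by rw [h.inv_HH (inv_mem hk), inv_inv]
  have hkN := (mem_HH.mp hk).1
  refine ⟨k⁻¹ * u, { h with uu := ?_, uN := ?_, uz := ?_ }, ?_, ?_, ?_⟩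
  · calc k⁻¹ * u * (k⁻¹ * u) = k⁻¹ * (u * k⁻¹ * u) := by group
      _ = 1 := by rw [hki]; group
  · intro h1
    apply h.uN
    have h2 := mul_mem hkN h1
    rwa [mul_inv_cancel_left] at h2
  · have h2 := (mem_HH.mp (inv_mem hk)).2
    calc k⁻¹ * u * z = k⁻¹ * (u * z) := by group
      _ = (k⁻¹ * z) * u := by rw [h.uz]; group
      _ = z * (k⁻¹ * u) := by rw [h2]; group
  · rw [smul_mk, mul_one, QuotientGroup.eq]
    have h2 : (k⁻¹ * u)⁻¹ * u = u⁻¹ * k * u := by group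
    rw [h2, h.u_inv, h.inv_HH hk]
    exact inv_mem hkN
  · rw [smul_mk, mul_assoc, h.uu, mul_one, mk_eq_one]
    exact inv_mem hkN
  · rw [mul_smul, hxu, inv_smul_eq_iff, h.conj_smul hk, hkx]

theorem pgl [Finite G] (h : Big M z u) (hlt : Nat.card (HH M z) < Nat.card M)
    (hgt : Nat.card M - 1 < 2 * Nat.card (HH M z)) :
    ∃ (F : Type) (_ : Field F) (_ : Fintype F) (p : ℕ) (_ : Fact p.Prime) (_ : CharP F p),
      Fintype.card F = Nat.card M ∧ Cfsg.IsElementaryAbelian p M ∧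
      Nonempty (G ≃* (GL (Fin 2) F ⧸ Subgroup.center (GL (Fin 2) F))) := by
  classical
  obtain ⟨-, hcomm, p, f, hp, hpM, hf⟩ := h.exists_prime hlt
  have hfact : Fact p.Prime := ⟨hp⟩
  obtain ⟨y, hy, hy1⟩ := h.exists_ne
  obtain ⟨t, hT, ht1, ht2, ht3⟩ := h.exists_swap hgt hy hy1
  let φ : M ≃ Fin (Nat.card M) := Finite.equivFin M
  let ε : Option (Fin (Nat.card M)) ≃ G ⧸ normalizer (M : Set G) := Equiv.ofBijective
    (fun o => o.elim ((1 : G) : G ⧸ normalizer (M : Set G))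
      (fun i => (((φ.symm i : M) : G) * u : G))) (by
    constructor
    · rintro (_ | i) (_ | j) hij
      · rfl
      · exact absurd hij.symm (h.point_ne (φ.symm j).2)
      · exact absurd hij (h.point_ne (φ.symm i).2)
      · have h1 := h.uniq (φ.symm i).2 (φ.symm j).2 (QuotientGroup.eq.mp hij)
        rw [φ.symm.injective (Subtype.ext h1)]
    · intro a
      by_cases ha : a = ((1 : G) : G ⧸ normalizer (M : Set G))
      · exact ⟨none, ha.symm⟩
      · obtain ⟨w, hw, hwa⟩ := h.exists_point ha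
        refine ⟨some (φ ⟨w, hw⟩), ?_⟩
        show (((φ.symm (φ ⟨w, hw⟩) : M) : G) * u : G) = a
        rw [Equiv.symm_apply_apply, hwa])
  have hε0 : ε none = ((1 : G) : G ⧸ normalizer (M : Set G)) := rfl
  have hε1 : ∀ i, ε (some i) = (((φ.symm i : M) : G) * u : G) := fun i => rfl
  have hε2 : ∀ w (hw : w ∈ M), ε (some (φ ⟨w, hw⟩)) = ((w * u : G) : G ⧸ normalizer (M : Set G)) := by
    intro w hw
    rw [hε1, Equiv.symm_apply_apply]
  let ρ : G →* Equiv.Perm (Option (Fin (Nat.card M))) :=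
    { toFun := fun g => ⟨fun x => ε.symm (g • ε x), fun x => ε.symm (g⁻¹ • ε x),
        by intro x; simp, by intro x; simp⟩
      map_one' := by apply Equiv.ext; intro x; simp
      map_mul' := by intro a b; apply Equiv.ext; intro x; simp [mul_smul] }
  have hρ : ∀ g x, ρ g x = ε.symm (g • ε x) := fun g x => rfl
  have hρ' : ∀ g x w, ρ g x = w ↔ g • ε x = ε w := by
    intro g x w
    rw [hρ, Equiv.symm_apply_eq]
  have hρi : Function.Injective ρ := by
    have := (h.isZassenhaus hlt).1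
    rw [injective_iff_map_eq_one]
    intro g hg
    apply FaithfulSMul.eq_of_smul_eq_smul (α := G ⧸ normalizer (M : Set G))
    intro a
    have h1 : ρ g (ε.symm a) = ε.symm a := by rw [hg]; rfl
    rw [hρ'] at h1
    rw [Equiv.apply_symm_apply] at h1
    rw [h1, one_smul]
  let ν : M →* Equiv.Perm (Fin (Nat.card M)) :=
    { toFun := fun a => ⟨fun i => φ (a * φ.symm i), fun i => φ (a⁻¹ * φ.symm i),
        by intro x; simp, by intro x; simp⟩
      map_one' := by apply Equiv.ext; intro x; simp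
      map_mul' := by intro a b; apply Equiv.ext; intro x; simp [mul_assoc] }
  have hν : ∀ a i, ν a i = φ (a * φ.symm i) := fun a i => rfl
  have hmem : ∀ (k : HH M z) (a : M), (k : G) * a * (k : G)⁻¹ ∈ M :=
    fun k a => conj_mem (mem_HH.mp k.2).1 a.2
  have hmem' : ∀ (k : HH M z) (a : M), (k : G)⁻¹ * a * (k : G) ∈ M :=
    fun k a => conj_mem' (mem_HH.mp k.2).1 a.2
  let η : HH M z →* Equiv.Perm (Fin (Nat.card M)) :=
    { toFun := fun k => ⟨fun i => φ ⟨_, hmem k (φ.symm i)⟩, fun i => φ ⟨_, hmem' k (φ.symm i)⟩,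
        by intro x; simp [mul_assoc], by intro x; simp [mul_assoc]⟩
      map_one' := by apply Equiv.ext; intro x; simp
      map_mul' := by intro a b; apply Equiv.ext; intro x; simp [mul_assoc] }
  have hη : ∀ k i, η k i = φ ⟨_, hmem k (φ.symm i)⟩ := fun a i => rfl
  have hzH : z ∈ HH M z := mem_HH.mpr ⟨h.zN, rfl⟩
  have huT : ((t : G) : G ⧸ normalizer (M : Set G)) = ((u : G) : G ⧸ normalizer (M : Set G)) := by
    rw [← ht1, smul_mk, mul_one]
  -- values of `ρ`
  have hρk : ∀ k (hk : k ∈ HH M z) w (hw : w ∈ M), ρ k (some (φ ⟨w, hw⟩)) =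
      some (φ ⟨k * w * k⁻¹, hmem ⟨k, hk⟩ ⟨w, hw⟩⟩) := by
    intro k hk w hw
    rw [hρ', hε2, hε2, h.conj_smul hk]
  have hρk0 : ∀ k, k ∈ normalizer (M : Set G) → ρ k none = none := by
    intro k hk
    rw [hρ', hε0, smul_mk, mul_one, mk_eq_one]
    exact hk
  have hρm : ∀ a (ha : a ∈ M) w (hw : w ∈ M), ρ a (some (φ ⟨w, hw⟩)) =
      some (φ ⟨a * w, M.mul_mem ha hw⟩) := by
    intro a ha w hw
    rw [hρ', hε2, hε2, smul_mk, mul_assoc]
  have hsurj : ∀ i : Fin (Nat.card M), ∃ w, ∃ hw : w ∈ M, i = φ ⟨w, hw⟩ := by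
    intro i
    exact ⟨φ.symm i, (φ.symm i).2, by simp⟩
  have hone : φ 1 = φ ⟨1, M.one_mem⟩ := rfl
  have hηφ : ∀ (k : HH M z) w (hw : w ∈ M), η k (φ ⟨w, hw⟩) = φ ⟨(k : G) * w * (k : G)⁻¹, hmem k ⟨w, hw⟩⟩ := by
    intro k w hw
    rw [hη]
    congr 1
    apply Subtype.ext
    simp
  have hνφ : ∀ (a : M) w (hw : w ∈ M), ν a (φ ⟨w, hw⟩) = φ (a * ⟨w, hw⟩) := by
    intro a w hw
    rw [hν, Equiv.symm_apply_apply]
  have key := pgl_core ρ.range ν.range η.range (φ 1) (φ ⟨y, hy⟩)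
    (by
      intro h1
      exact hy1 (congrArg Subtype.val (φ.injective h1)).symm)
    (by
      rintro _ ⟨a, rfl⟩ _ ⟨b, rfl⟩
      rw [← map_mul, ← map_mul, hcomm.is_comm.comm a b])
    (by
      intro x
      refine ⟨ν (φ.symm x), ⟨_, rfl⟩, ?_⟩
      rw [hν, Equiv.symm_apply_apply, mul_one, Equiv.apply_symm_apply])
    (by
      rintro _ ⟨a, rfl⟩ _ ⟨b, rfl⟩
      rw [← map_mul, ← map_mul]
      congr 1
      exact Subtype.ext (h.comm_HH a.2 b.2))
    (by
      rintro _ ⟨k, rfl⟩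
      rw [hone, hηφ]
      congr 1
      apply Subtype.ext
      simp)
    (by
      intro x hx
      obtain ⟨w, hw, rfl⟩ := hsurj x
      have hw1 : w ≠ 1 := by
        rintro rfl
        exact hx rfl
      obtain ⟨k, hk, hkw⟩ := h.transitive hgt hw hw1 hy hy1
      refine ⟨η ⟨k, hk⟩, ⟨_, rfl⟩, ?_⟩
      rw [hηφ]
      congr 1
      exact Subtype.ext hkw)
    (by
      rintro _ ⟨k, rfl⟩ _ ⟨a, rfl⟩
      refine ⟨⟨_, hmem k a⟩, ?_⟩
      rw [eq_mul_inv_iff_mul_eq]
      apply Equiv.ext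
      intro x
      obtain ⟨w, hw, rfl⟩ := hsurj x
      show ν _ (η k _) = η k (ν a _)
      rw [hηφ, hνφ, hνφ]
      have h1 : (a * ⟨w, hw⟩ : M) = ⟨a * w, M.mul_mem a.2 hw⟩ := rfl
      rw [h1, hηφ]
      congr 1
      apply Subtype.ext
      show (k : G) * a * (k : G)⁻¹ * (k * w * (k : G)⁻¹) = k * (a * w) * (k : G)⁻¹
      group)
    (by
      rintro _ ⟨a, rfl⟩
      refine ⟨ρ a, ⟨_, rfl⟩, hρk0 _ (le_N a.2), ?_⟩
      intro x
      obtain ⟨w, hw, rfl⟩ := hsurj x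
      rw [hρm _ a.2, hνφ]
      rfl)
    (by
      rintro _ ⟨k, rfl⟩
      refine ⟨ρ k, ⟨_, rfl⟩, hρk0 _ (mem_HH.mp k.2).1, ?_⟩
      intro x
      obtain ⟨w, hw, rfl⟩ := hsurj x
      rw [hρk _ k.2, hηφ])
    (ρ t) ⟨t, rfl⟩
    (by
      rw [hρ', hone, hε0, hε2, ht1, one_mul])
    (by
      rw [hρ', hone, hε0, hε2, one_mul, ht2])
    (by
      rintro _ ⟨k, rfl⟩
      have h1 : (η k)⁻¹ = η k⁻¹ := (map_inv η k).symm
      rw [h1, hηφ, hηφ, hρ', hε2, hε2]
      have h2 : (((k⁻¹ : HH M z) : G)) = (k : G)⁻¹ := rfl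
      rw [h2]
      have h3 := h.conj_smul k.2 y
      have h4 := h.conj_smul (inv_mem k.2) y
      rw [← h3, ← h4, smul_smul]
      have h5 : t * (k : G) = (k : G)⁻¹ * t := by
        have h6 := hT.inv_HH k.2
        calc t * (k : G) = t * k * (t * t) := by rw [hT.uu, mul_one]
          _ = (t * k * t) * t := by group
          _ = (k : G)⁻¹ * t := by rw [h6]
      rw [h5, mul_smul, ht3])
    (by
      -- sharply 3-transitive
      have hstd : ∀ a b c : G ⧸ normalizer (M : Set G), a ≠ b → a ≠ c → b ≠ c →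
          ∃ g : G, g • ((1 : G) : G ⧸ normalizer (M : Set G)) = a ∧
            g • ((u : G) : G ⧸ normalizer (M : Set G)) = b ∧
            g • ((y * u : G) : G ⧸ normalizer (M : Set G)) = c := by
        intro a b c hab hac hbc
        obtain ⟨g, hg1, hg2⟩ := h.exists_move hab
        have hc1 : g⁻¹ • c ≠ ((1 : G) : G ⧸ normalizer (M : Set G)) := by
          intro h1
          apply hac
          rw [← hg1, ← h1, smul_inv_smul]
        obtain ⟨w, hw, hwc⟩ := h.exists_point hc1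
        have hw1 : w ≠ 1 := by
          rintro rfl
          apply hbc
          rw [one_mul] at hwc
          rw [← hg2, ← hwc, smul_inv_smul]
        obtain ⟨k, hk, hkw⟩ := h.transitive hgt hw hw1 hy hy1
        have hkN := (mem_HH.mp hk).1
        refine ⟨g * k, ?_, ?_, ?_⟩
        · rw [mul_smul]
          have h1 : k • ((1 : G) : G ⧸ normalizer (M : Set G)) = ((1 : G) : G ⧸ normalizer (M : Set G)) := by
            rw [smul_mk, mul_one, mk_eq_one]; exact hkN
          rw [h1, hg1]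
        · rw [mul_smul]
          have h1 := h.conj_smul hk 1
          have h2 : k * 1 * k⁻¹ * u = u := by group
          rw [one_mul, h2] at h1
          rw [h1, hg2]
        · rw [mul_smul, h.conj_smul hk, hkw, ← hwc, smul_inv_smul]
      intro a b c a' b' c' hab hac hbc hab' hac' hbc'
      obtain ⟨g, hg1, hg2, hg3⟩ := hstd (ε a) (ε b) (ε c) (ε.injective.ne hab) (ε.injective.ne hac)
        (ε.injective.ne hbc)
      obtain ⟨k, hk1, hk2, hk3⟩ := hstd (ε a') (ε b') (ε c') (ε.injective.ne hab')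
        (ε.injective.ne hac') (ε.injective.ne hbc')
      refine ⟨ρ (k * g⁻¹), ⟨_, rfl⟩, ?_, ?_, ?_⟩
      · rw [hρ', mul_smul, ← hg1, inv_smul_smul, hk1]
      · rw [hρ', mul_smul, ← hg2, inv_smul_smul, hk2]
      · rw [hρ', mul_smul, ← hg3, inv_smul_smul, hk3])
    (by
      rintro _ ⟨g, rfl⟩ a b c hab hac hbc ha hb hc
      rw [hρ'] at ha hb hc
      rw [h.no_three g _ _ _ (ε.injective.ne hab) (ε.injective.ne hbc) (ε.injective.ne hac) ha hb hc,
        map_one])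
  obtain ⟨F, hF1, hF2, hF3, ⟨e⟩⟩ := key
  exact ⟨F, hF1, hF2, p, hfact, charP_of_card_eq_prime_pow (hF3.trans hf), hF3, ⟨hcomm, hpM⟩,
    ⟨(MonoidHom.ofInjective hρi).trans e⟩⟩

end Big

end Cfsg.Agent.H272.TIInv
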