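import Cfsg.Agent.PermutationGroups.SharpThreeEven
import Cfsg.Agent.PermutationGroups.FieldOfAffine

/-!
A sharply 3-transitive group with abelian two point stabilisers inverted by an involution swapping
the two points is `PGL(2, F)`.
-/

set_option autoImplicit false

namespace Cfsg.Agent.H272.TIInv

open Equiv

theorem pgl_core1 {K : Type*} (G : Subgroup (Perm (Option K))) (N H : Subgroup (Perm K))
    (o e : K) (hoe : o ≠ e)
    (hNc : ∀ a ∈ N, ∀ b ∈ N, a * b = b * a) (hNt : ∀ x, ∃ a ∈ N, a o = x)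
    (hHc : ∀ a ∈ H, ∀ b ∈ H, a * b = b * a) (hH0 : ∀ h ∈ H, h o = o)
    (hHt : ∀ x, x ≠ o → ∃ h ∈ H, h e = x) (hHN : ∀ h ∈ H, ∀ a ∈ N, h * a * h⁻¹ ∈ N)
    (hNG : ∀ a ∈ N, ∃ g ∈ G, g none = none ∧ ∀ y, g (some y) = some (a y))
    (hHG : ∀ a ∈ H, ∃ g ∈ G, g none = none ∧ ∀ y, g (some y) = some (a y))
    (t : Perm (Option K)) (htG : t ∈ G) (ht1 : t none = some o) (ht2 : t (some o) = none)
    (htH : ∀ h ∈ H, t (some (h e)) = some (h⁻¹ e)) :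
    ∃ F : Field K, (∀ b : K, ∃ g ∈ G, g none = none ∧ ∀ y : K, g (some y) = some (F.add b y)) ∧
      (∀ a : K, a ≠ F.zero → ∃ g ∈ G, g none = none ∧ ∀ y : K, g (some y) = some (F.mul a y)) ∧
      (∃ g ∈ G, g none = some F.zero ∧ g (some F.zero) = none ∧
        ∀ y : K, y ≠ F.zero → g (some y) = some (F.inv y)) := by
  classical
  obtain ⟨F, hF1, hF2, hF0, hFe⟩ := Cfsg.Agent.PermutationGroups.FieldOfAffine.exists_field N H o e hoe
    hNc hNt hHc hH0 hHt hHN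
  refine ⟨F, ?_, ?_, ?_⟩
  · intro b
    obtain ⟨a, ha, hab⟩ := hNt b
    obtain ⟨g, hg, hg1, hg2⟩ := hNG a ha
    refine ⟨g, hg, hg1, ?_⟩
    intro y
    rw [hg2, hF1 a ha y, hab]
  · intro a ha0
    rw [hF0] at ha0
    obtain ⟨h, hh, hha⟩ := hHt a ha0
    obtain ⟨g, hg, hg1, hg2⟩ := hHG h hh
    refine ⟨g, hg, hg1, ?_⟩
    intro y
    rw [hg2, hF2 h hh y, hha]
  · rw [hF0]
    refine ⟨t, htG, ht1, ht2, ?_⟩
    intro y hy
    obtain ⟨h, hh, hha⟩ := hHt y hy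
    have h4 := htH h hh
    rw [hha] at h4
    rw [h4]
    congr 1
    have h5 := hF2 h hh (h⁻¹ e)
    have h7 : h (h⁻¹ e) = e := Equiv.apply_symm_apply h e
    rw [h7, hha] at h5
    let _ := F
    have h6 : y * (h⁻¹ e) = 1 := by
      have : (1 : K) = e := hFe
      rw [this]; exact h5.symm
    exact eq_inv_of_mul_eq_one_right h6

theorem pgl_core {m : ℕ} (G : Subgroup (Perm (Option (Fin m)))) (N H : Subgroup (Perm (Fin m)))
    (o e : Fin m) (hoe : o ≠ e)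
    (hNc : ∀ a ∈ N, ∀ b ∈ N, a * b = b * a) (hNt : ∀ x, ∃ a ∈ N, a o = x)
    (hHc : ∀ a ∈ H, ∀ b ∈ H, a * b = b * a) (hH0 : ∀ h ∈ H, h o = o)
    (hHt : ∀ x, x ≠ o → ∃ h ∈ H, h e = x) (hHN : ∀ h ∈ H, ∀ a ∈ N, h * a * h⁻¹ ∈ N)
    (hNG : ∀ a ∈ N, ∃ g ∈ G, g none = none ∧ ∀ y, g (some y) = some (a y))
    (hHG : ∀ a ∈ H, ∃ g ∈ G, g none = none ∧ ∀ y, g (some y) = some (a y))
    (t : Perm (Option (Fin m))) (htG : t ∈ G) (ht1 : t none = some o) (ht2 : t (some o) = none)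
    (htH : ∀ h ∈ H, t (some (h e)) = some (h⁻¹ e))
    (h3 : ∀ a b c a' b' c' : Option (Fin m), a ≠ b → a ≠ c → b ≠ c → a' ≠ b' → a' ≠ c' → b' ≠ c' →
      ∃ g ∈ G, g a = a' ∧ g b = b' ∧ g c = c')
    (hs : ∀ g ∈ G, ∀ a b c : Option (Fin m), a ≠ b → a ≠ c → b ≠ c → g a = a → g b = b → g c = c →
      g = 1) :
    ∃ (F : Type) (_ : Field F) (_ : Fintype F), Fintype.card F = m ∧
      Nonempty (G ≃* Matrix.ProjGenLinGroup (Fin 2) F) := by
  classical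
  obtain ⟨F, hF1, hF2, hF3⟩ := pgl_core1 G N H o e hoe hNc hNt hHc hH0 hHt hHN hNG hHG t htG ht1 ht2 htH
  refine ⟨Fin m, F, inferInstance, Fintype.card_fin m, ?_⟩
  let _ := F
  exact Cfsg.Agent.PermutationGroups.SharpThreeEven.core2 (K := Fin m) G h3 hs hF1 hF2 hF3

end Cfsg.Agent.H272.TIInv
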