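import Cfsg.Agent.H272.TIInv.Big

/-!
`G` is a Zassenhaus group on the cosets of `N(M)`.
-/

set_option autoImplicit false

namespace Cfsg.Agent.H272.TIInv

open Subgroup

variable {G : Type*} [Group G] {M : Subgroup G} {z u : G}

namespace Big

theorem four_le [Finite G] (h : Big M z u) : 4 ≤ Nat.card (HH M z) ∧ Even (Nat.card (HH M z)) := by
  have hz : z ∈ HH M z := mem_HH.mpr ⟨h.zN, rfl⟩
  have h1 : 2 ∣ Nat.card (HH M z) := by
    have h2 : orderOf (⟨z, hz⟩ : HH M z) = 2 :=
      orderOf_eq_prime (by rw [pow_two]; exact Subtype.ext h.zz) (fun h0 => h.z1 (congrArg Subtype.val h0))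
    rw [← h2]
    exact orderOf_dvd_natCard _
  refine ⟨?_, even_iff_two_dvd.mpr h1⟩
  have h2 : 0 < Nat.card (HH M z) := Nat.card_pos
  have h3 := h.ne2
  omega

/-- no regular normal subgroup -/
theorem not_regular [Finite G] (h : Big M z u) (hlt : Nat.card (HH M z) < Nat.card M)
    (E : Subgroup G) (hE : E.Normal) (htr : MulAction.IsPretransitive E (G ⧸ normalizer (M : Set G)))
    (hst : ∀ a : G ⧸ normalizer (M : Set G), MulAction.stabilizer E a = ⊥) : False := by
  classical
  -- uniqueness and existence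
  have huniq : ∀ e ∈ E, ∀ f ∈ E, e • ((1 : G) : G ⧸ normalizer (M : Set G)) =
      f • ((1 : G) : G ⧸ normalizer (M : Set G)) → e = f := by
    intro e he f hf hef
    have h1 : (⟨f⁻¹ * e, E.mul_mem (E.inv_mem hf) he⟩ : E) ∈
        MulAction.stabilizer E ((1 : G) : G ⧸ normalizer (M : Set G)) := by
      rw [MulAction.mem_stabilizer_iff]
      show (f⁻¹ * e) • ((1 : G) : G ⧸ normalizer (M : Set G)) = _
      rw [mul_smul, hef, inv_smul_smul]
    rw [hst, Subgroup.mem_bot] at h1
    exact (inv_mul_eq_one.mp (congrArg Subtype.val h1)).symm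
  obtain ⟨⟨e0, he0E⟩, he0⟩ := htr.exists_smul_eq ((1 : G) : G ⧸ normalizer (M : Set G))
    ((u : G) : G ⧸ normalizer (M : Set G))
  have he0' : e0 • ((1 : G) : G ⧸ normalizer (M : Set G)) = ((u : G) : G ⧸ normalizer (M : Set G)) := he0
  have hu1 : ((u : G) : G ⧸ normalizer (M : Set G)) ≠ ((1 : G) : G ⧸ normalizer (M : Set G)) := by
    have := h.point_ne (y := 1) M.one_mem
    rwa [one_mul] at this
  have he01 : e0 ≠ 1 := by
    rintro rfl
    rw [one_smul] at he0'
    exact hu1 he0'.symm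
  -- all non-identity elements of `E` are conjugate to `e0`
  have hconj : ∀ e ∈ E, e ≠ 1 → ∃ y ∈ M, y⁻¹ * e * y = e0 := by
    intro e he he1
    have h1 : e • ((1 : G) : G ⧸ normalizer (M : Set G)) ≠ ((1 : G) : G ⧸ normalizer (M : Set G)) := by
      intro h2
      apply he1
      apply huniq e he 1 E.one_mem
      rw [h2, one_smul]
    obtain ⟨y, hy, hye⟩ := h.exists_point h1
    refine ⟨y, hy, huniq _ ?_ _ he0E ?_⟩
    · have := hE.conj_mem e he y⁻¹
      rwa [inv_inv] at this
    · have h2 : y • ((1 : G) : G ⧸ normalizer (M : Set G)) = ((1 : G) : G ⧸ normalizer (M : Set G)) := by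
        rw [smul_mk, mul_one, mk_eq_one]; exact le_N hy
      rw [mul_smul, mul_smul, h2, hye, he0', smul_mk]
      congr 1
      group
  -- the order of `E`
  have hcardE : Nat.card E = Nat.card M + 1 := by
    rw [← h.index_N, Subgroup.index]
    refine Nat.card_congr (Equiv.ofBijective
      (fun e : E => (e : G) • ((1 : G) : G ⧸ normalizer (M : Set G))) ⟨?_, ?_⟩)
    · intro e f hef
      exact Subtype.ext (huniq e e.2 f f.2 hef)
    · intro a
      obtain ⟨e, he⟩ := htr.exists_smul_eq ((1 : G) : G ⧸ normalizer (M : Set G)) a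
      exact ⟨e, he⟩
  have hodd := h.odd_card
  have : Fact (Nat.Prime 2) := ⟨Nat.prime_two⟩
  obtain ⟨w, hw⟩ := exists_prime_orderOf_dvd_card' (G := E) 2 (by
    rw [hcardE]
    obtain ⟨k, hk⟩ := hodd
    rw [hk]
    exact ⟨k + 1, by ring⟩)
  have hww : (w : G) * w = 1 := by
    have h1 : w * w = 1 := by rw [← pow_two, ← hw]; exact pow_orderOf_eq_one _
    exact congrArg Subtype.val h1
  have hw1 : (w : G) ≠ 1 := by
    intro h1
    have h2 : w = 1 := Subtype.ext h1
    rw [h2, orderOf_one] at hw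
    norm_num at hw
  have he0sq : e0 * e0 = 1 := by
    obtain ⟨y, hy, hyw⟩ := hconj w w.2 hw1
    rw [← hyw]
    calc y⁻¹ * w * y * (y⁻¹ * w * y) = y⁻¹ * ((w : G) * w) * y := by group
      _ = 1 := by rw [hww]; group
  have hsq : ∀ e ∈ E, e * e = 1 := by
    intro e he
    by_cases he1 : e = 1
    · rw [he1, one_mul]
    · obtain ⟨y, hy, hye⟩ := hconj e he he1
      calc e * e = y * ((y⁻¹ * e * y) * (y⁻¹ * e * y)) * y⁻¹ := by group
        _ = 1 := by rw [hye, he0sq]; group
  have hcomm : ∀ a ∈ E, ∀ b ∈ E, a * b = b * a := by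
    intro a ha b hb
    have h6 : (a : G)⁻¹ = a := inv_eq_of_mul_eq_one_left (hsq a ha)
    have h7 : (b : G)⁻¹ = b := inv_eq_of_mul_eq_one_left (hsq b hb)
    have h8 : ((a : G) * b)⁻¹ = a * b := inv_eq_of_mul_eq_one_left (hsq _ (E.mul_mem ha hb))
    rw [← h8, mul_inv_rev, h6, h7]
  have hz1 : z • ((1 : G) : G ⧸ normalizer (M : Set G)) = ((1 : G) : G ⧸ normalizer (M : Set G)) := by
    rw [smul_mk, mul_one, mk_eq_one]; exact h.zN
  have hzu : z • ((u : G) : G ⧸ normalizer (M : Set G)) = ((u : G) : G ⧸ normalizer (M : Set G)) := by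
    rw [smul_mk, ← h.uz, QuotientGroup.eq]
    have h1 : (u * z)⁻¹ * u = z⁻¹ := by group
    rw [h1]; exact inv_mem h.zN
  have hzE : ∀ e ∈ E, z * e * z⁻¹ ∈ E := fun e he => hE.conj_mem e he z
  have hzinv : z⁻¹ • ((1 : G) : G ⧸ normalizer (M : Set G)) = ((1 : G) : G ⧸ normalizer (M : Set G)) := by
    rw [inv_smul_eq_iff, hz1]
  -- fixed points of `z` in `E`
  have hfix : ∀ e ∈ E, z * e * z⁻¹ = e → e = 1 ∨ e = e0 := by
    intro e he hze
    by_contra hcon
    push Not at hcon
    apply h.z1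
    refine h.no_three z ((1 : G) : G ⧸ normalizer (M : Set G)) ((u : G) : G ⧸ normalizer (M : Set G))
      (e • ((1 : G) : G ⧸ normalizer (M : Set G))) hu1.symm ?_ ?_ hz1 hzu ?_
    · intro h1
      exact hcon.2 (huniq e he e0 he0E (by rw [← h1, he0']))
    · intro h1
      exact hcon.1 (huniq e he 1 E.one_mem (by rw [← h1, one_smul]))
    · have h1 : z • e • ((1 : G) : G ⧸ normalizer (M : Set G)) =
          (z * e * z⁻¹) • ((1 : G) : G ⧸ normalizer (M : Set G)) := by
        rw [mul_smul, mul_smul, hzinv]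
      rw [h1, hze]
  have hw' : ∀ e ∈ E, e * (z * e * z⁻¹) = 1 ∨ e * (z * e * z⁻¹) = e0 := by
    intro e he
    refine hfix _ (E.mul_mem he (hzE e he)) ?_
    have hzz2 : z * (z * e * z⁻¹) * z⁻¹ = e := by
      calc z * (z * e * z⁻¹) * z⁻¹ = (z * z) * e * (z * z)⁻¹ := by group
        _ = e := by rw [h.zz]; group
    calc z * (e * (z * e * z⁻¹)) * z⁻¹ = (z * e * z⁻¹) * (z * (z * e * z⁻¹) * z⁻¹) := by group
      _ = (z * e * z⁻¹) * e := by rw [hzz2]
      _ = e * (z * e * z⁻¹) := (hcomm _ he _ (hzE e he)).symm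
  -- for `e ∉ {1, e0}`: `z e z⁻¹ = e e0`
  have hz' : ∀ e ∈ E, e ≠ 1 → e ≠ e0 → z * e * z⁻¹ = e * e0 := by
    intro e he he1 he2
    rcases hw' e he with h1 | h1
    · exfalso
      have h2 : z * e * z⁻¹ = e⁻¹ := (eq_inv_of_mul_eq_one_right h1)
      rw [inv_eq_of_mul_eq_one_left (hsq e he)] at h2
      rcases hfix e he h2 with h3 | h3
      · exact he1 h3
      · exact he2 h3
    · calc z * e * z⁻¹ = (e * e) * (z * e * z⁻¹) := by rw [hsq e he, one_mul]
        _ = e * (e * (z * e * z⁻¹)) := by group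
        _ = e * e0 := by rw [h1]
  -- `E` has at most four elements
  obtain ⟨h4, -⟩ := h.four_le
  have h6 : 6 ≤ Nat.card E := by omega
  by_cases hex : ∃ e ∈ E, e ≠ 1 ∧ e ≠ e0
  · obtain ⟨e, he, he1, he2⟩ := hex
    have hsub : (E : Set G) ⊆ (({1, e0, e, e * e0} : Finset G) : Set G) := by
      intro f hf
      by_cases hf1 : f = 1
      · simp [hf1]
      by_cases hf2 : f = e0
      · simp [hf2]
      have h7 : z * (e * f) * z⁻¹ = e * f := by
        calc z * (e * f) * z⁻¹ = (z * e * z⁻¹) * (z * f * z⁻¹) := by group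
          _ = (e * e0) * (f * e0) := by rw [hz' e he he1 he2, hz' f hf hf1 hf2]
          _ = e * (e0 * f) * e0 := by group
          _ = e * (f * e0) * e0 := by rw [hcomm e0 he0E f hf]
          _ = e * f * (e0 * e0) := by group
          _ = e * f := by rw [he0sq, mul_one]
      have hei : e⁻¹ = e := inv_eq_of_mul_eq_one_left (hsq e he)
      rcases hfix _ (E.mul_mem he hf) h7 with h8 | h8
      · have h9 : f = e := by
          have := eq_inv_of_mul_eq_one_right h8
          rw [this, hei]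
        simp [h9]
      · have h9 : f = e * e0 := by
          calc f = (e * e) * f := by rw [hsq e he, one_mul]
            _ = e * (e * f) := by group
            _ = e * e0 := by rw [h8]
        simp [h9]
    have h7 : Nat.card E ≤ ({1, e0, e, e * e0} : Finset G).card := by
      have h8 := Set.ncard_le_ncard hsub (Finset.finite_toSet _)
      rw [Set.ncard_coe_finset] at h8
      exact h8
    have h8 : ({1, e0, e, e * e0} : Finset G).card ≤ 4 := Finset.card_le_four
    omega
  · push Not at hex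
    have hsub : (E : Set G) ⊆ (({1, e0} : Finset G) : Set G) := by
      intro f hf
      by_cases hf1 : f = 1
      · simp [hf1]
      · simp [hex f hf hf1]
    have h7 : Nat.card E ≤ ({1, e0} : Finset G).card := by
      have h8 := Set.ncard_le_ncard hsub (Finset.finite_toSet _)
      rw [Set.ncard_coe_finset] at h8
      exact h8
    have h8 : ({1, e0} : Finset G).card ≤ 2 := Finset.card_le_two
    omega

theorem isZassenhaus [Finite G] (h : Big M z u) (hlt : Nat.card (HH M z) < Nat.card M) :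
    Cfsg.IsZassenhausGroup G (G ⧸ normalizer (M : Set G)) := by
  have hu1 : ((u : G) : G ⧸ normalizer (M : Set G)) ≠ ((1 : G) : G ⧸ normalizer (M : Set G)) := by
    have := h.point_ne (y := 1) M.one_mem
    rwa [one_mul] at this
  have hz1 : z • ((1 : G) : G ⧸ normalizer (M : Set G)) = ((1 : G) : G ⧸ normalizer (M : Set G)) := by
    rw [smul_mk, mul_one, mk_eq_one]; exact h.zN
  have hzu : z • ((u : G) : G ⧸ normalizer (M : Set G)) = ((u : G) : G ⧸ normalizer (M : Set G)) := by
    rw [smul_mk, ← h.uz, QuotientGroup.eq]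
    have h1 : (u * z)⁻¹ * u = z⁻¹ := by group
    rw [h1]; exact inv_mem h.zN
  refine ⟨⟨?_⟩, h.two_trans, ?_, ⟨z, h.z1, _, _, hu1.symm, hz1, hzu⟩, ?_⟩
  · intro g k hgk
    obtain ⟨y, hy, hy1⟩ := h.exists_ne
    have hyu : ((y * u : G) : G ⧸ normalizer (M : Set G)) ≠ ((u : G) : G ⧸ normalizer (M : Set G)) := by
      intro h1
      apply hy1
      apply h.uniq hy M.one_mem
      rw [one_mul]
      exact QuotientGroup.eq.mp h1
    have h1 : ∀ a : G ⧸ normalizer (M : Set G), (k⁻¹ * g) • a = a := by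
      intro a
      rw [mul_smul, hgk a, inv_smul_smul]
    have h2 := h.no_three (k⁻¹ * g) _ _ _ hu1.symm hyu.symm (h.point_ne hy).symm (h1 _) (h1 _) (h1 _)
    exact (inv_mul_eq_one.mp h2).symm
  · intro g a b c hab hbc hac ha hb hc
    exact h.no_three g a b c hab hbc hac ha hb hc
  · intro E hE htr
    by_contra hcon
    push Not at hcon
    exact h.not_regular hlt E hE htr hcon

/-- two point stabilisers -/
theorem stab_inf [Finite G] (h : Big M z u) :
    MulAction.stabilizer G ((1 : G) : G ⧸ normalizer (M : Set G)) ⊓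
      MulAction.stabilizer G ((u : G) : G ⧸ normalizer (M : Set G)) = HH M z := by
  ext g
  rw [Subgroup.mem_inf, MulAction.mem_stabilizer_iff, MulAction.mem_stabilizer_iff]
  constructor
  · rintro ⟨h1, h2⟩
    have h3 := mem_of_smul_one h1
    exact mem_HH.mpr ⟨h3, h.comm_of_mem h.uu h.uN h.uz h3 (h.mem_of_smul_u h2)⟩
  · intro hg
    have h1 := (mem_HH.mp hg).1
    refine ⟨by rw [smul_mk, mul_one, mk_eq_one]; exact h1, ?_⟩
    rw [smul_mk, QuotientGroup.eq]
    have h2 := h.inv_HH hg
    have h3 : (g * u)⁻¹ * u = (u * g * u)⁻¹ := by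
      rw [mul_inv_rev, mul_inv_rev, mul_inv_rev, h.u_inv]; group
    rw [h3, h2, inv_inv]
    exact h1

theorem stab_one (M : Subgroup G) :
    MulAction.stabilizer G ((1 : G) : G ⧸ normalizer (M : Set G)) = normalizer (M : Set G) := by
  ext g
  rw [MulAction.mem_stabilizer_iff, smul_mk, mul_one, mk_eq_one]

end Big

end Cfsg.Agent.H272.TIInv
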